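/-
Fusion in groups with an extraspecial Sylow 3-subgroup of order 27 whose normalizer centralizes
its centre.
-/
import Cfsg.Agent.BG.B9
set_option autoImplicit false
set_option linter.unusedSectionVars false

namespace CF.X3
open Subgroup Cfsg CF.BG
open scoped commutatorElement

variable {G : Type*} [Group G] [Finite G] {P : Subgroup G} {z u v g n : G}

theorem p3 : Nat.Prime 3 := Nat.prime_three

def cls (K : Subgroup G) (a : G) : Set G := {y | ∃ k ∈ K, k * a * k⁻¹ = y}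

theorem ncard_cls (K : Subgroup G) (a : G) : (cls K a).ncard = (𝐂₁ a).relIndex K := by
  letI : MulAction K G := MulAction.compHom G (MulAut.conj.comp K.subtype)
  have e1 : MulAction.orbit K a = cls K a := by
    ext y
    exact ⟨fun ⟨k, e⟩ => ⟨k, k.2, e⟩, fun ⟨k, hk, e⟩ => ⟨⟨k, hk⟩, e⟩⟩
  have e2 : MulAction.stabilizer K a = (𝐂₁ a).subgroupOf K := by
    ext k
    rw [mem_subgroupOf, mem_cent1, ← mul_inv_eq_iff_eq_mul]
    rfl
  rw [← e1, ← MulAction.index_stabilizer, e2, relIndex]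

structure Ex (P : Subgroup G) (z : G) : Prop where
  syl : Syl 3 P ⊤
  card : ♯P = 27
  exp : ∀ x ∈ P, x ^ 3 = 1
  zP : z ∈ P
  z1 : z ≠ 1
  zc : ∀ x ∈ P, x ∈ 𝐂 P → x ∈ zpowers z
  der : ⁅P, P⁆ ≤ zpowers z
  nc : 𝐍 P ≤ 𝐂₁ z

theorem mem_three (h : orderOf z = 3) (hv : v ∈ zpowers z) : v = 1 ∨ v = z ∨ v = z⁻¹ := by
  classical
  obtain ⟨k, hk, rfl⟩ := Finset.mem_image.1 ((mem_zpowers_iff_mem_range_orderOf (x := z)).1 hv)
  rw [h, Finset.mem_range] at hk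
  have : z ^ 3 = 1 := h ▸ pow_orderOf_eq_one z
  interval_cases k
  · simp
  · simp
  · exact .inr (.inr (eq_inv_of_mul_eq_one_left (by rw [← pow_succ, this])))

namespace Ex
variable (h : Ex P z)
include h

theorem ord (hu : u ∈ P) (u1 : u ≠ 1) : orderOf u = 3 :=
  haveI := Fact.mk p3; orderOf_eq_prime (h.exp u hu) u1

theorem oz : orderOf z = 3 := h.ord h.zP h.z1
theorem cz : ♯(zpowers z) = 3 := by rw [Nat.card_zpowers, h.oz]
theorem PH : P ≤ 𝐂₁ z := (le_norm_self P).trans h.nc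
theorem ZP : zpowers z ≤ P := zpowers_le.2 h.zP
theorem ZC : zpowers z ≤ 𝐂 P := zpowers_le.2 (le_cent1_iff.1 h.PH)

theorem conj_eq (hu : u ∈ P) (hg : g ∈ P) : ∃ w ∈ zpowers z, g * u * g⁻¹ = w * u :=
  ⟨⁅g, u⁆, h.der (commutator_mem_commutator hg hu), by rw [commutatorElement_def]; group⟩

theorem exists_conj (hu : u ∈ P) (nu : u ∉ zpowers z) (hv : v ∈ zpowers z) :
    ∃ y ∈ P, y * u * y⁻¹ = v * u := by
  obtain ⟨y, hy, ne⟩ : ∃ y ∈ P, y * u ≠ u * y := by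
    by_contra c
    push Not at c
    exact nu (h.zc u hu (mem_cent.2 c))
  obtain ⟨w, hw, e⟩ := h.conj_eq hu hy
  have w1 : w ≠ 1 := fun e' => ne (by rw [e', one_mul] at e; rw [← mul_inv_eq_iff_eq_mul.1 e])
  rw [← zpowers_eq_of_prime (h.cz ▸ p3) hw w1, ← mem_powers_iff_mem_zpowers] at hv
  obtain ⟨k, rfl⟩ := hv
  refine ⟨y ^ k, pow_mem hy k, ?_⟩
  induction k with
  | zero => simp
  | succ k ih =>
    have c := mem_cent.1 (h.ZC (pow_mem hw k)) y hy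
    calc y ^ (k + 1) * u * (y ^ (k + 1))⁻¹ = y * (y ^ k * u * (y ^ k)⁻¹) * y⁻¹ := by
          rw [pow_succ']; group
      _ = w ^ (k + 1) * u := by
          simp only at ih
          rw [ih, ← mul_assoc, c, mul_assoc, mul_assoc, ← mul_assoc y, e, pow_succ, mul_assoc]

theorem cls_P (hu : u ∈ P) (nu : u ∉ zpowers z) :
    cls P u = (fun w => w * u) '' (zpowers z : Set G) := by
  ext y
  constructor
  · rintro ⟨k, hk, rfl⟩
    obtain ⟨w, hw, e⟩ := h.conj_eq hu hk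
    exact ⟨w, hw, e.symm⟩
  · rintro ⟨w, hw, rfl⟩
    exact h.exists_conj hu nu hw

theorem ncard_P (hu : u ∈ P) (nu : u ∉ zpowers z) : (cls P u).ncard = 3 := by
  rw [h.cls_P hu nu, Set.ncard_image_of_injective _ (mul_left_injective u), ← h.cz]; rfl

theorem cV (hu : u ∈ P) (nu : u ∉ zpowers z) : ♯(P ⊓ 𝐂₁ u) = 9 := by
  have := card_inf_mul_relIndex (𝐂₁ u) P
  rw [← ncard_cls, h.ncard_P hu nu, h.card, inf_comm] at this
  omega

theorem V_eq (hu : u ∈ P) (nu : u ∉ zpowers z) : zpowers u ⊔ zpowers z = P ⊓ 𝐂₁ u := by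
  have o : ♯(zpowers u) = 3 := by
    rw [Nat.card_zpowers, h.ord hu fun e => nu (e ▸ one_mem _)]
  refine eq_of_card_eq (sup_le (zpowers_le.2 ⟨hu, self_mem_cent1 u⟩)
    (le_inf h.ZP (h.ZC.trans (cent_le_cent1 hu)))) ?_
  rw [h.cV hu nu, card_sup_of_inf_bot (.inl (norm_of_cent' (h.ZC.trans (cent_anti (zpowers_le.2 hu)))))
    (inf_eq_bot_of_prime_of_not_le (o ▸ p3) (mt zpowers_le.1 nu)), o, h.cz]

theorem burn (hv : v ∈ 𝐂 P) (e : g * z * g⁻¹ = v) : v = z := by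
  have s : Syl 3 P (𝐂₁ v) := h.syl.of_le (le_cent1_iff.2 hv) le_top
  obtain ⟨c, hc, l⟩ := s.syl_cj_le (K := cj g P) (by rw [← e, ← cj_cent1]; exact cj_mono g h.PH)
    (h.syl.pi.cj g)
  rw [cj_cj] at l
  have := mem_cent1.1 (h.nc (mem_norm_of_cj_le l))
  have c2 := mem_cent1.1 hc
  calc v = c * v * c⁻¹ := by rw [c2]; group
    _ = c * g * z * (c * g)⁻¹ := by rw [← e]; group
    _ = z := by rw [this]; group

theorem zz : ¬ IsConj z z⁻¹ := fun c => by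
  obtain ⟨g, e⟩ := isConj_iff.1 c
  have := h.burn (inv_mem (h.ZC (mem_zpowers z))) e
  have o := h.oz
  have : z ^ 2 = 1 := by rw [sq]; nth_rewrite 1 [← this]; group
  have := orderOf_dvd_of_pow_eq_one this
  rw [o] at this; omega

theorem zu (hu : u ∈ P) (nu : u ∉ zpowers z) : ¬ IsConj z u := fun c => by
  obtain ⟨g, e⟩ := isConj_iff.1 c
  have s : Syl 3 (cj g P) (𝐂₁ u) :=
    (h.syl.cj_top g).of_le (by rw [← e, ← cj_cent1]; exact cj_mono g h.PH) le_top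
  obtain ⟨k, hk, l⟩ := s.syl_cj_le (K := zpowers z) (h.ZC.trans (cent_le_cent1 hu)) (h.syl.pi.le h.ZP)
  have m : g⁻¹ * (k * z * k⁻¹) * g ∈ P := mem_cj.1 (l (conj_mem_cj.2 (mem_zpowers z)))
  have c2 := mem_cent1.1 hk
  have e2 : k⁻¹ * g * z * (k⁻¹ * g)⁻¹ = u := by
    calc _ = k⁻¹ * (g * z * g⁻¹) * k := by group
      _ = u := by rw [e, mul_assoc, ← c2]; group
  have nm : (g⁻¹ * (k * z * k⁻¹) * g)⁻¹ ∉ zpowers z := fun hm => by
    have : z ∈ zpowers u := by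
      rw [← e2, ← cj_zpowers, mem_cj]
      convert inv_mem hm using 1; group
    exact nu (by
      rw [zpowers_eq_of_prime (X := zpowers u) (by
        rw [Nat.card_zpowers, h.ord hu fun e => nu (e ▸ one_mem _)]; exact p3) this h.z1]
      exact mem_zpowers u)
  obtain ⟨y, -, e3⟩ := h.exists_conj (inv_mem m) nm (mem_zpowers z)
  obtain ⟨y', -, e4⟩ := h.exists_conj hu nu (inv_mem (mem_zpowers z))
  refine h.zz (c.trans ((isConj_iff.2 ⟨y', e4⟩).trans (IsConj.symm (isConj_iff.2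
    ⟨k⁻¹ * g * y * g⁻¹ * k, ?_⟩))))
  have c3 := mem_cent.1 (h.ZC (inv_mem (mem_zpowers z))) u hu
  calc _ = k⁻¹ * g * (y * (g⁻¹ * (k * z * k⁻¹) * g)⁻¹ * y⁻¹) * (k⁻¹ * g)⁻¹ := by group
    _ = (k⁻¹ * g * z * (k⁻¹ * g)⁻¹) * z⁻¹ := by rw [e3]; group
    _ = _ := by rw [e2, c3]

theorem wk (hm : g * z * g⁻¹ ∈ P) : g * z * g⁻¹ = z :=
  h.burn (h.ZC (by_contra fun c => h.zu hm c (isConj_iff.2 ⟨g, rfl⟩))) rfl

theorem zu' (hu : u ∈ P) (nu : u ∉ zpowers z) : ¬ IsConj z⁻¹ u := fun c => by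
  obtain ⟨g, e⟩ := isConj_iff.1 c
  exact h.zu (inv_mem hu) (mt (zpowers z).inv_mem_iff.1 nu) (isConj_iff.2 ⟨g, by rw [← e]; group⟩)

theorem sylV (hu : u ∈ P) (nu : u ∉ zpowers z) : Syl 3 (P ⊓ 𝐂₁ u) (𝐂₁ u) := by
  obtain ⟨S, s, l⟩ := exists_syl_le (inf_le_right : P ⊓ 𝐂₁ u ≤ _) h.syl.pi.inf_left
  obtain ⟨k, -, l2⟩ := h.syl.syl_cj_le (K := S) le_top s.pi
  refine s.of_card_le inf_le_right h.syl.pi.inf_left ?_
  have d : ♯S ∣ 3 ^ 3 := by have := card_dvd l2; rwa [card_cj, h.card] at this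
  obtain ⟨j, hj, e⟩ := (Nat.dvd_prime_pow p3).1 d
  rw [h.cV hu nu]
  by_contra c
  have j3 : j = 3 := by rw [e] at c; interval_cases j <;> simp_all
  have e2 : cj k S = P := eq_of_card_eq l2 (by rw [card_cj, e, j3, h.card]; rfl)
  have m : k * u * k⁻¹ ∈ zpowers z := h.zc _ (e2 ▸ conj_mem_cj.2 (l ⟨hu, self_mem_cent1 u⟩))
    (le_cent1_iff.1 (by rw [← e2, ← cj_cent1]; exact cj_mono k s.le))
  rcases mem_three h.oz m with e3 | e3 | e3
  · exact nu (by rw [conj_eq_one_iff.1 e3]; exact one_mem _)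
  · exact h.zu hu nu (isConj_iff.2 ⟨k, e3⟩).symm
  · exact h.zu' hu nu (isConj_iff.2 ⟨k, e3⟩).symm

theorem npc (hu : u ∈ P) (nu : u ∉ zpowers z) : NPC 3 (𝐂₁ u) := by
  refine (h.sylV hu nu).burnside fun g hg => ?_
  have zV : z ∈ P ⊓ 𝐂₁ u := ⟨h.zP, cent_le_cent1 hu (h.ZC (mem_zpowers z))⟩
  have := h.wk (conj_mem_of_norm hg.2 zV).1
  rw [← h.V_eq hu nu, cent_sup, cent_zpowers, cent_zpowers]
  exact ⟨hg.1, mem_cent1.2 (mul_inv_eq_iff_eq_mul.1 this)⟩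

theorem npc' (hu : u ∈ P) (nu : u ∉ zpowers z) :
    ∃ N : Subgroup (𝐂₁ u), N.Normal ∧ ¬ 3 ∣ Nat.card N ∧ N.index = 3 ^ 2 := by
  have s := (h.npc hu nu).sdprod (h.sylV hu nu)
  refine ⟨_, s.normal.normal, ?_, s.relIndex_left.trans (h.cV hu nu)⟩
  rw [Nat.card_congr (subgroupOfEquivOfLe s.left_le).toEquiv]
  exact (h.npc hu nu).pi.not_dvd' p3 rfl

theorem fus (hu : u ∈ P) (nu : u ∉ zpowers z) (hv : v ∈ P) (e : g * u * g⁻¹ = v) :
    ∃ n ∈ 𝐍 P, n * u * n⁻¹ = v := by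
  have nv : v ∉ zpowers z := fun m => by
    rcases mem_three h.oz m with e3 | e3 | e3 <;> rw [e3] at e
    · exact nu (by rw [conj_eq_one_iff.1 e]; exact one_mem _)
    · exact h.zu hu nu (isConj_iff.2 ⟨g, e⟩).symm
    · exact h.zu' hu nu (isConj_iff.2 ⟨g, e⟩).symm
  obtain ⟨c, hc, l⟩ := (h.sylV hv nv).syl_cj_le (K := cj g (P ⊓ 𝐂₁ u))
    (by rw [← e, ← cj_cent1]; exact cj_mono g inf_le_right) (h.syl.pi.inf_left.cj g)
  rw [cj_cj] at l
  have e1 : c * g * u * (c * g)⁻¹ = v := by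
    calc _ = c * (g * u * g⁻¹) * c⁻¹ := by group
      _ = v := by rw [e, mem_cent1.1 hc]; group
  have zV : z ∈ P ⊓ 𝐂₁ u := ⟨h.zP, cent_le_cent1 hu (h.ZC (mem_zpowers z))⟩
  have e2 := h.wk (l (conj_mem_cj.2 zV)).1
  have Y : ∀ {x}, x ∈ P → P ≤ centMod (zpowers x) (zpowers z) := fun hx =>
    le_centMod.2 ⟨norm_of_cent' h.ZC, (commutator_mono le_rfl (zpowers_le.2 hx)).trans h.der⟩
  have s := h.syl.of_le (Y hv) le_top
  obtain ⟨m, hm, l2⟩ := s.syl_cj_le (K := cj (c * g) P) (by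
    have := cj_mono (c * g) (Y hu)
    rwa [cj_centMod, cj_zpowers, cj_zpowers, e1, e2] at this) (h.syl.pi.cj _)
  rw [cj_cj] at l2
  obtain ⟨y, hy, e3⟩ := h.exists_conj hv nv ((mem_centMod.1 hm).2 v (mem_zpowers v))
  refine ⟨y⁻¹ * (m * (c * g)), mul_mem (le_norm_self P (inv_mem hy)) (mem_norm_of_cj_le l2), ?_⟩
  calc _ = y⁻¹ * (m * (c * g * u * (c * g)⁻¹) * m⁻¹) * y := by group
    _ = y⁻¹ * (⁅m, v⁆ * v) * y := by rw [e1, commutatorElement_def]; group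
    _ = v := by rw [← e3]; group

theorem KN : P ⊔ 𝐂 P ⊴ 𝐍 P := (normalIn_norm P).sup ⟨cent_le_norm P, norm_le_norm_cent P⟩

theorem eidx : PiNat {3}ᶜ ((P ⊔ 𝐂 P).relIndex (𝐍 P)) :=
  (h.syl.of_le (le_norm_self P) le_top).idx_of_le le_sup_left

theorem free (hu : u ∈ P) (nu : u ∉ zpowers z) (hn : n ∈ 𝐍 P) (hc : n ∈ 𝐂₁ u) : n ∈ P ⊔ 𝐂 P := by
  have cV : n ∈ 𝐂 (P ⊓ 𝐂₁ u) := by
    rw [← h.V_eq hu nu, cent_sup, cent_zpowers, cent_zpowers]; exact ⟨hc, h.nc hn⟩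
  have n3 : n ^ 3 ∈ 𝐂 P := mem_cent.2 fun y hy => by
    obtain ⟨w, hw, e⟩ := h.conj_eq (g := y) hu hy
    have y' := conj_mem_of_norm hn hy
    have cw : n * w * n⁻¹ = w := by
      rw [← mem_cent.1 ((cent_zpowers z).ge (h.nc hn)) w hw]; group
    have cu : n * u * n⁻¹ = u := by rw [mem_cent1.1 hc]; group
    have m : y⁻¹ * (n * y * n⁻¹) ∈ P ⊓ 𝐂₁ u := ⟨P.mul_mem (P.inv_mem hy) y', mem_cent1.2 (by
      have e2 : (n * y * n⁻¹) * u * (n * y * n⁻¹)⁻¹ = w * u := by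
        calc _ = n * (y * (n⁻¹ * u * n) * y⁻¹) * n⁻¹ := by group
          _ = (n * w * n⁻¹) * (n * u * n⁻¹) := by
            rw [show n⁻¹ * u * n = u by nth_rewrite 1 [← cu]; group, e]; group
          _ = _ := by rw [cw, cu]
      rw [← e] at e2
      calc _ = y⁻¹ * ((n * y * n⁻¹) * u * (n * y * n⁻¹)⁻¹) * (n * y * n⁻¹) := by group
        _ = _ := by rw [e2]; group)⟩
    set t := y⁻¹ * (n * y * n⁻¹) with ht
    have e1 : n * y = y * t * n := by rw [ht]; group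
    have e2 : n * t = t * n := (mem_cent.1 cV t m).symm
    have e3 := h.exp t m.1
    calc y * n ^ 3 = y * (t ^ 3) * n ^ 3 := by rw [e3, mul_one]
      _ = y * (t * n) ^ 3 := by rw [Commute.mul_pow e2.symm, mul_assoc]
      _ = n ^ 3 * y := by
        have : t * n = y⁻¹ * n * y := by rw [mul_assoc y⁻¹ n y, e1]; group
        rw [this, show y⁻¹ * n * y = y⁻¹ * n * y⁻¹⁻¹ by rw [inv_inv], conj_pow]; group
  obtain ⟨a, b, ha, hb, pa, pb, e⟩ := exists_piPart {3} n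
  have aK : a ∈ P := h.syl.mem_of_norm (mem_top a) (zpowers_le.2 hn ha) pa
  have bK : b ∈ 𝐂 P := by
    obtain ⟨k, rfl⟩ := hb
    have : (n ^ k) ^ 3 ∈ 𝐂 P := by
      rw [← zpow_natCast, ← zpow_mul, mul_comm, zpow_mul, zpow_natCast]; exact zpow_mem n3 k
    have c : (orderOf (n ^ k)).Coprime 3 :=
      ((Nat.Prime.coprime_iff_not_dvd p3).2 (PiNat.not_dvd' pb p3 rfl)).symm
    exact zpowers_le.2 this (mem_zpowers_pow_iff.2 c.symm)
  rw [← e]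
  exact mul_mem (mem_sup_left aK) (mem_sup_right bK)

theorem cls_K (hu : u ∈ P) : cls (P ⊔ 𝐂 P) u = cls P u := by
  ext y
  refine ⟨?_, fun ⟨k, hk, e⟩ => ⟨k, mem_sup_left hk, e⟩⟩
  rintro ⟨k, hk, rfl⟩
  obtain ⟨a, ha, b, hb, rfl⟩ := (mem_sup_norm' (cent_le_norm P)).1 hk
  exact ⟨a, ha, by rw [mul_assoc a b, ← mem_cent.1 hb u hu]; group⟩

theorem ncard_N (hu : u ∈ P) (nu : u ∉ zpowers z) :
    (cls (𝐍 P) u).ncard = 3 * (P ⊔ 𝐂 P).relIndex (𝐍 P) := by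
  rw [← h.ncard_P hu nu, ← h.cls_K hu, ncard_cls, ncard_cls, ← inf_relIndex_right (𝐂₁ u) (𝐍 P),
    ← inf_relIndex_right (𝐂₁ u) (P ⊔ 𝐂 P), relIndex_mul_relIndex _ _ _ inf_le_right h.KN.le]
  congr 1
  exact le_antisymm (le_inf inf_le_left fun n hn => h.free hu nu hn.2 hn.1)
    (inf_le_inf_left _ h.KN.le)

theorem real (ev : 2 ∣ (P ⊔ 𝐂 P).relIndex (𝐍 P)) (hu : u ∈ P) (nu : u ∉ zpowers z) :
    IsConj u u⁻¹ := by
  haveI := h.KN.normal
  haveI := Fact.mk Nat.prime_two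
  obtain ⟨x, hx⟩ := exists_prime_orderOf_dvd_card' (G := 𝐍 P ⧸ (P ⊔ 𝐂 P).subgroupOf (𝐍 P)) 2 ev
  obtain ⟨⟨t, ht⟩, rfl⟩ := QuotientGroup.mk_surjective x
  have t1 : t ∉ P ⊔ 𝐂 P := fun m => by
    rw [(QuotientGroup.eq_one_iff _).2 (mem_subgroupOf.2 m), orderOf_one] at hx; omega
  have t2 : t * t ∈ P ⊔ 𝐂 P := by
    have := pow_orderOf_eq_one (QuotientGroup.mk (s := (P ⊔ 𝐂 P).subgroupOf (𝐍 P)) ⟨t, ht⟩)
    rw [hx, sq, ← QuotientGroup.mk_mul, QuotientGroup.eq_one_iff] at this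
    exact this
  have u' := conj_mem_of_norm ht hu
  obtain ⟨y, hy, e⟩ : t * t * u * (t * t)⁻¹ ∈ cls P u := h.cls_K hu ▸ ⟨_, t2, rfl⟩
  have m : u * (t * u * t⁻¹) ∈ zpowers z := by
    by_contra c
    obtain ⟨w, hw, e1⟩ := h.conj_eq hu hy
    obtain ⟨w', hw', e2⟩ := h.conj_eq hu u'
    obtain ⟨y', hy', e3⟩ := h.exists_conj (mul_mem hu u') c (mul_mem hw hw')
    refine t1 ?_
    have := h.free (n := y'⁻¹ * t) (mul_mem hu u') c (mul_mem (le_norm_self P (inv_mem hy')) ht)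
      (mem_cent1.2 (by
        have c1 := mem_cent.1 (h.ZC hw) _ u'
        have : t * (u * (t * u * t⁻¹)) * t⁻¹ = w * w' * (u * (t * u * t⁻¹)) := by
          calc _ = (t * u * t⁻¹) * (t * t * u * (t * t)⁻¹) := by group
            _ = ((t * u * t⁻¹) * w) * u := by rw [← e, e1]; group
            _ = w * ((t * u * t⁻¹) * u * (t * u * t⁻¹)⁻¹) * (t * u * t⁻¹) := by rw [c1]; group
            _ = _ := by rw [e2]; group
        rw [← e3] at this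
        calc _ = y'⁻¹ * (t * (u * (t * u * t⁻¹)) * t⁻¹) * t := by group
          _ = _ := by rw [this]; group))
    simpa using mul_mem (mem_sup_left hy' : y' ∈ P ⊔ 𝐂 P) this
  obtain ⟨y, -, e⟩ := h.exists_conj (inv_mem hu) (mt (zpowers z).inv_mem_iff.1 nu) m
  refine (isConj_iff.2 ⟨t, ?_⟩).trans (isConj_iff.2 ⟨y, e⟩).symm
  rw [← mem_cent.1 (h.ZC m) _ (inv_mem hu)]; group

theorem sub : Ex (P.subgroupOf (𝐂₁ z)) ⟨z, self_mem_cent1 z⟩ := by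
  have i := (𝐂₁ z).subtype_injective
  have e := map_subgroupOf h.PH
  have zz : ∀ x : 𝐂₁ z, (x : G) ∈ zpowers z → x ∈ zpowers (⟨z, self_mem_cent1 z⟩ : 𝐂₁ z) :=
    fun x ⟨k, hk⟩ => ⟨k, Subtype.ext hk⟩
  refine ⟨?_, by rw [← card_map i, e, h.card], fun x hx => Subtype.ext (h.exp x hx), h.zP,
    fun e => h.z1 (congrArg Subtype.val e), fun x hx hc => zz x (h.zc x hx (mem_cent.2 fun y hy =>
      congrArg Subtype.val (mem_cent.1 hc ⟨y, h.PH hy⟩ hy))), fun x hx => zz x (h.der ?_),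
    fun n _ => mem_cent1.2 (Subtype.ext (mem_cent1.1 n.2))⟩
  · have := hall_subgroupOf (h.syl.of_le h.PH le_top) le_rfl
    rwa [subgroupOf_self] at this
  · rw [← e, ← map_commutator]; exact mem_map_of_mem _ hx

end Ex

variable {κ : Type*} {U : κ → G}

/-- representatives of the classes of noncentral elements -/
structure Rp (P : Subgroup G) (z : G) (U : κ → G) : Prop where
  mem : ∀ i, U i ∈ P
  nz : ∀ i, U i ∉ zpowers z
  uu : ∀ i j, IsConj (U i) (U j) → i = j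
  ex : ∀ g ∈ P, g ∉ zpowers z → ∃ i, ∃ n ∈ 𝐍 P, n * U i * n⁻¹ = g

theorem Ex.exists_rp (h : Ex P z) :
    ∃ (n : ℕ) (U : Fin n → G), Rp P z U := by
  let s : Setoid {g // g ∈ P ∧ g ∉ zpowers z} := (IsConj.setoid G).comap Subtype.val
  let e := Finite.equivFin (Quotient s)
  refine ⟨_, fun i => (e.symm i).out, fun i => (e.symm i).out.2.1, fun i => (e.symm i).out.2.2,
    fun i j c => e.symm.injective (Quotient.out_equiv_out.1 c), fun g hg ng => ?_⟩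
  refine ⟨e ⟦⟨g, hg, ng⟩⟧, ?_⟩
  obtain ⟨c, hc⟩ := isConj_iff.1 (Quotient.mk_out (s := s) ⟨g, hg, ng⟩)
  rw [e.symm_apply_apply]
  exact h.fus (Quotient.out (s := s) _).2.1 (Quotient.out (s := s) _).2.2 hg hc

theorem Rp.card [Fintype κ] (r : Rp P z U) (h : Ex P z) :
    Fintype.card κ * (P ⊔ 𝐂 P).relIndex (𝐍 P) = 8 := by
  have e : (P : Set G) \ zpowers z = ⋃ i, cls (𝐍 P) (U i) := by
    ext g
    simp only [Set.mem_iUnion]
    refine ⟨fun ⟨a, b⟩ => r.ex g a b, ?_⟩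
    rintro ⟨i, n, hn, rfl⟩
    refine ⟨conj_mem_of_norm hn (r.mem i), fun m => r.nz i ?_⟩
    rw [← conj_mem_cj (g := n), cj_of_cent ((cent_zpowers z).ge (h.nc hn))]
    exact m
  have c : ((P : Set G) \ zpowers z).ncard = 24 := by
    rw [Set.ncard_sdiff h.ZP]
    change ♯P - ♯(zpowers z) = 24
    rw [h.card, h.cz]
  rw [e, Set.ncard_iUnion_of_finite (fun _ => Set.toFinite _), finsum_eq_sum_of_fintype] at c
  · simp only [h.ncard_N (r.mem _) (r.nz _), Finset.sum_const, Finset.card_univ, smul_eq_mul] at c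
    linarith
  · refine fun i j ne => Set.disjoint_left.2 ?_
    rintro _ ⟨a, -, rfl⟩ ⟨b, -, e⟩
    exact ne (r.uu i j ((isConj_iff.2 ⟨a, rfl⟩).trans (isConj_iff.2 ⟨b, e⟩).symm))

theorem Rp.sub (r : Rp P z U) (h : Ex P z) :
    Rp (P.subgroupOf (𝐂₁ z)) ⟨z, self_mem_cent1 z⟩ fun i => ⟨U i, h.PH (r.mem i)⟩ := by
  refine ⟨r.mem, fun i ⟨k, hk⟩ => r.nz i ⟨k, congrArg Subtype.val hk⟩,
    fun i j c => r.uu i j ((𝐂₁ z).subtype.map_isConj c), fun g hg ng => ?_⟩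
  obtain ⟨i, n, hn, e⟩ := r.ex g hg fun ⟨k, hk⟩ => ng ⟨k, Subtype.ext hk⟩
  exact ⟨i, ⟨n, h.nc hn⟩, mem_norm.2 fun y => mem_norm.1 hn y, Subtype.ext e⟩

/-- the classes of 3-elements -/
structure Fu (z : G) (U : κ → G) : Prop where
  oz : orderOf z = 3
  ou : ∀ i, orderOf (U i) = 3
  rep : ∀ g : G, (∃ k, orderOf g = 3 ^ k) → g = 1 ∨ IsConj z g ∨ IsConj z⁻¹ g ∨ ∃ i, IsConj (U i) g
  zz : ¬ IsConj z z⁻¹
  zu : ∀ i, ¬ IsConj z (U i)
  zu' : ∀ i, ¬ IsConj z⁻¹ (U i)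
  uu : ∀ i j, IsConj (U i) (U j) → i = j
  npc : ∀ i, ∃ N : Subgroup (𝐂₁ (U i)), N.Normal ∧ ¬ 3 ∣ Nat.card N ∧ N.index = 3 ^ 2
  uz : ∀ i, IsConj (U i) (z * U i)

theorem Rp.fu (r : Rp P z U) (h : Ex P z) : Fu z U := by
  refine ⟨h.oz, fun i => h.ord (r.mem i) fun e => r.nz i (e ▸ one_mem _), fun g ⟨k, hk⟩ => ?_, h.zz,
    fun i => h.zu (r.mem i) (r.nz i), fun i => h.zu' (r.mem i) (r.nz i), r.uu,
    fun i => h.npc' (r.mem i) (r.nz i), fun i => ?_⟩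
  · obtain ⟨c, -, l⟩ := h.syl.syl_cj_le (K := zpowers g) le_top
      (piGrp_of_card p3 ((Nat.card_zpowers g).trans hk))
    have m := l (conj_mem_cj.2 (mem_zpowers g))
    have cc : IsConj (c * g * c⁻¹) g := (isConj_iff.2 ⟨c, rfl⟩).symm
    by_cases m' : c * g * c⁻¹ ∈ zpowers z
    · rcases mem_three h.oz m' with e | e | e
      · exact .inl (conj_eq_one_iff.1 e)
      · exact .inr (.inl (e ▸ cc))
      · exact .inr (.inr (.inl (e ▸ cc)))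
    · obtain ⟨i, n, -, e⟩ := r.ex _ m m'
      exact .inr (.inr (.inr ⟨i, (isConj_iff.2 ⟨n, e⟩).trans cc⟩))
  · obtain ⟨y, -, e⟩ := h.exists_conj (r.mem i) (r.nz i) (mem_zpowers z)
    exact isConj_iff.2 ⟨y, e⟩

end CF.X3
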