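/-
Integer vector combinatorics for the principal 3-block with defect group 3^(1+2).
-/
import Mathlib
set_option autoImplicit false
set_option linter.unusedSectionVars false

namespace CF.X3
open Finset

variable {ι κ J : Type*} [Fintype ι] [DecidableEq ι] [Fintype κ] [DecidableEq κ] [Fintype J]
  [DecidableEq J]

theorem bessel {K : Type*} [Fintype K] [DecidableEq K] (y : K → ι → ℤ) (c n : K → ℤ) (N : ℤ)
    (hN : 0 < N) (hy : ∀ k k', y k ⬝ᵥ y k' = if k = k' then n k else 0) (hc : ∀ k, c k * n k = N)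
    (x : ι) : ∑ k, c k * y k x ^ 2 ≤ N := by
  set s := ∑ k, c k * y k x ^ 2 with hs
  set w : ι → ℤ := ∑ k, (c k * y k x) • y k with hw
  have e1 : w ⬝ᵥ w = N * s := by
    rw [hw, sum_dotProduct, hs, mul_sum]
    refine sum_congr rfl fun k _ => ?_
    rw [dotProduct_sum]
    simp only [smul_dotProduct, dotProduct_smul, hy, smul_eq_mul, mul_ite, mul_zero, sum_ite_eq,
      mem_univ, if_true]
    rw [← hc k]; ring
  have e2 : w x = s := by
    rw [hw, hs, Finset.sum_apply]
    exact sum_congr rfl fun k _ => by simp only [Pi.smul_apply, smul_eq_mul]; ring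
  have e3 : w x * w x ≤ w ⬝ᵥ w :=
    single_le_sum (f := fun i => w i * w i) (fun i _ => mul_self_nonneg _) (mem_univ x)
  rw [e1, e2] at e3
  by_contra h
  push Not at h
  nlinarith

theorem dot_split (S : Finset ι) (v w : ι → ℤ) :
    v ⬝ᵥ w = ∑ x ∈ S, v x * w x + ∑ x ∈ Sᶜ, v x * w x := (sum_add_sum_compl S _).symm

structure Six (d : κ → ι → ℤ) (S : Finset ι) (E : κ → ι) : Prop where
  card : S.card = 6
  mem : ∀ i, E i ∈ S
  inj : Function.Injective E
  val : ∀ i x, d i x = if x ∈ S then (if x = E i then -2 else 1) else 0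

theorem Six.dot {d : κ → ι → ℤ} {S : Finset ι} {E : κ → ι} (h : Six d S E) (v : ι → ℤ) (i : κ) :
    v ⬝ᵥ d i = ∑ x ∈ S, v x - 3 * v (E i) := by
  rw [dot_split S, sum_eq_zero (s := Sᶜ) fun x hx => by rw [h.val, if_neg (mem_compl.1 hx), mul_zero],
    add_zero, sum_congr rfl (g := fun x => v x - if x = E i then 3 * v x else 0) fun x hx => by
      rw [h.val, if_pos hx]; split_ifs <;> ring, sum_sub_distrib, sum_ite_eq', if_pos (h.mem i)]

theorem six_or_nine [Nonempty κ] (d : κ → ι → ℤ) (S : Finset ι) (o : ι) (ho : o ∈ S)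
    (hd : ∀ i j, d i ⬝ᵥ d j = if i = j then 9 else 0)
    (h1 : ∀ i, ∀ x ∈ S, d i x % 3 = 1) (h0 : ∀ i, ∀ x ∉ S, d i x % 3 = 0) (ho1 : ∀ i, d i o = 1)
    (hw : ∀ i, ∃ w : ι → ℤ, w o = 1 ∧ w ⬝ᵥ d i = 0) :
    (∃ E, Six d S E) ∨ (Fintype.card κ = 1 ∧ S.card = 9 ∧ ∀ i x, d i x = if x ∈ S then 1 else 0) := by
  have b : ∀ i x, d i x * d i x ≤ 8 := by
    intro i x
    by_cases e : x = o
    · rw [e, ho1]; norm_num
    · have := sum_le_sum_of_subset_of_nonneg (f := fun y => d i y * d i y) (subset_univ {x, o})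
        fun y _ _ => mul_self_nonneg _
      rw [sum_pair e, ho1] at this
      have e2 := hd i i
      rw [if_pos rfl] at e2
      change ∑ y, d i y * d i y = 9 at e2
      omega
  have b' : ∀ i x, -3 < d i x ∧ d i x < 3 := fun i x => by
    have := b i x; constructor <;> nlinarith
  have z : ∀ i, ∀ x ∉ S, d i x = 0 := fun i x hx => by have := h0 i x hx; have := b' i x; omega
  have v : ∀ i, ∀ x ∈ S, d i x = 1 ∨ d i x = -2 := fun i x hx => by
    have := h1 i x hx; have := b' i x; omega
  let A : κ → Finset ι := fun i => S.filter fun x => d i x = -2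
  have dd : ∀ i j, d i ⬝ᵥ d j =
      S.card - 3 * (A i).card - 3 * (A j).card + 9 * ((A i) ∩ (A j)).card := by
    intro i j
    rw [dot_split S, sum_eq_zero (s := Sᶜ) fun x hx => by rw [z i x (mem_compl.1 hx), zero_mul],
      add_zero, ← filter_and]
    simp only [A, card_filter, Nat.cast_sum, mul_sum, card_eq_sum_ones S, ← sum_sub_distrib,
      ← sum_add_distrib]
    refine sum_congr rfl fun x hx => ?_
    rcases v i x hx with e | e <;> rcases v j x hx with e' | e' <;> simp [e, e']
  have m : ∀ i, (S.card : ℤ) + 3 * (A i).card = 9 := fun i => by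
    have := dd i i; rw [hd, if_pos rfl, inter_self] at this; omega
  have sub : ∀ i, A i ⊆ S.erase o := fun i x hx => by
    rw [mem_filter] at hx
    exact mem_erase.2 ⟨fun e => by rw [e, ho1] at hx; omega, hx.1⟩
  have m1 : ∀ i, (A i).card ≤ 1 := by
    intro i
    by_contra h
    have c1 := card_le_card (sub i)
    rw [card_erase_of_mem ho] at c1
    have := m i
    have c2 : A i = S.erase o := eq_of_subset_of_card_le (sub i) (by rw [card_erase_of_mem ho]; omega)
    obtain ⟨w, w1, w2⟩ := hw i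
    rw [dot_split S, sum_eq_zero (s := Sᶜ) fun x hx => by rw [z i x (mem_compl.1 hx), mul_zero],
      add_zero, ← add_sum_erase S _ ho, w1, ho1, ← c2,
      sum_congr rfl (g := fun x => -2 * w x) fun x hx => by rw [(mem_filter.1 hx).2, mul_comm],
      ← mul_sum] at w2
    omega
  obtain ⟨i0⟩ := ‹Nonempty κ›
  by_cases h : (A i0).card = 0
  · have c9 : S.card = 9 := by have := m i0; omega
    have a0 : ∀ i, (A i).card = 0 := fun i => by have := m i; omega
    refine .inr ⟨Fintype.card_eq_one_iff.2 ⟨i0, fun i => ?_⟩, c9, fun i x => ?_⟩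
    · by_contra ne
      have := dd i i0
      rw [hd, if_neg ne, a0, a0, c9] at this
      omega
    · split_ifs with hx
      · refine (v i x hx).resolve_right fun e => ?_
        have : x ∈ A i := mem_filter.2 ⟨hx, e⟩
        rw [card_eq_zero.1 (a0 i)] at this
        simp at this
      · exact z i x hx
  · have c6 : S.card = 6 := by have := m i0; have := m1 i0; omega
    have a1 : ∀ i, ∃ e, A i = {e} := fun i => card_eq_one.1 (by have := m i; omega)
    choose E hE using a1
    have mE : ∀ i x, x = E i ↔ x ∈ S ∧ d i x = -2 := fun i x => by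
      rw [← mem_singleton, ← hE, mem_filter]
    refine .inl ⟨E, c6, fun i => ((mE i _).1 rfl).1, fun i j e => ?_, fun i x => ?_⟩
    · by_contra ne
      have := dd i j
      rw [hd, if_neg ne, hE, hE, e, c6, inter_self, card_singleton] at this
      omega
    · split_ifs with hx e
      · exact ((mE i x).1 e).2
      · exact (v i x hx).resolve_right fun e' => e ((mE i x).2 ⟨hx, e'⟩)
      · exact z i x hx

/-- inner products of the pairs of norm three vectors -/
structure Pr (d : κ → ι → ℤ) (i0 : κ) (V W : J → ι → ℤ) : Prop where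
  dd : ∀ i j, d i ⬝ᵥ d j = if i = j then 9 else 0
  vv : ∀ j k, V j ⬝ᵥ V k = if j = k then 3 else 1
  ww : ∀ j k, W j ⬝ᵥ W k = if j = k then 3 else 1
  vw : ∀ j k, V j ⬝ᵥ W k = if j = k then 2 else 1
  vd : ∀ j i, V j ⬝ᵥ d i = if i = i0 then -3 else 0
  wd : ∀ j i, W j ⬝ᵥ d i = if i = i0 then -3 else 0

namespace Pr
variable {d : κ → ι → ℤ} {i0 : κ} {V W : J → ι → ℤ} (h : Pr d i0 V W)
include h

theorem symm : Pr d i0 W V :=
  ⟨h.dd, h.ww, h.vv, fun j k => by rw [dotProduct_comm, h.vw]; simp only [eq_comm], h.wd, h.vd⟩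

theorem bes (x : ι) : ∑ j, (27 * (V j x - W j x) ^ 2 + (3 * (V j x + W j x) + 2 * d i0 x) ^ 2) +
    ∑ i, 6 * d i x ^ 2 ≤ 54 := by
  have := bessel (K := J ⊕ J ⊕ κ)
    (Sum.elim (fun j => V j - W j) (Sum.elim (fun j => (3 : ℤ) • (V j + W j) + (2 : ℤ) • d i0) d))
    (Sum.elim (fun _ => 27) (Sum.elim (fun _ => 1) fun _ => 6))
    (Sum.elim (fun _ => 2) (Sum.elim (fun _ => 54) fun _ => 9)) 54 (by norm_num) ?_ ?_ x
  · simpa [Fintype.sum_sum_type, sum_add_distrib, add_assoc, mul_add] using this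
  · have dv : ∀ j i, d i ⬝ᵥ V j = if i = i0 then -3 else 0 := fun j i => by
      rw [dotProduct_comm, h.vd]
    have dw : ∀ j i, d i ⬝ᵥ W j = if i = i0 then -3 else 0 := fun j i => by
      rw [dotProduct_comm, h.wd]
    rintro (a | a | a) (b | b | b) <;>
      simp only [Sum.elim_inl, Sum.elim_inr, sub_dotProduct, dotProduct_sub, add_dotProduct,
        dotProduct_add, smul_dotProduct, dotProduct_smul, h.dd, h.vv, h.ww, h.vw, h.symm.vw, h.vd,
        h.wd, dv, dw, smul_eq_mul, Sum.inl.injEq, Sum.inr.injEq, reduceCtorEq, if_true, if_false,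
        @eq_comm _ i0] <;> (try split_ifs) <;> norm_num
  · rintro (a | a | a) <;> norm_num

theorem nine {S : Finset ι} (h9 : S.card = 9) (hv : ∀ i x, d i x = if x ∈ S then 1 else 0)
    (hJ : Fintype.card J = 5) : False := by
  have sup : ∀ {V W : J → ι → ℤ}, Pr d i0 V W → ∀ j, ∀ x ∉ S, V j x = 0 := by
    intro V W h j x hx
    have e1 := h.vv j j
    have e2 := h.vd j i0
    rw [if_pos rfl, dot_split S] at e1 e2
    rw [sum_eq_zero (s := Sᶜ) fun x hx => by rw [hv, if_neg (mem_compl.1 hx), mul_zero],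
      sum_congr rfl (g := V j) fun x hx => by rw [hv, if_pos hx, mul_one]] at e2
    have e3 : 0 ≤ ∑ y ∈ S, (V j y * V j y + V j y) := sum_nonneg fun y _ => by
      rcases le_or_gt 0 (V j y) with e | e <;> nlinarith
    rw [sum_add_distrib] at e3
    change ∑ y ∈ S, V j y + 0 = _ at e2
    have e4 := single_le_sum (f := fun y => V j y * V j y) (fun y _ => mul_self_nonneg _)
      (mem_compl.2 hx)
    exact mul_self_eq_zero.1 (le_antisymm (by omega) (mul_self_nonneg _))
  have b : ∀ x ∈ S, ∑ j, (V j x - W j x) ^ 2 ≤ 1 := by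
    intro x hx
    have := h.bes x
    have e1 := single_le_sum (f := fun i => 6 * d i x ^ 2) (fun i _ => by positivity) (mem_univ i0)
    have e2 : ∑ j, 27 * (V j x - W j x) ^ 2 ≤
        ∑ j, (27 * (V j x - W j x) ^ 2 + (3 * (V j x + W j x) + 2 * d i0 x) ^ 2) :=
      sum_le_sum fun j _ => by have := sq_nonneg (3 * (V j x + W j x) + 2 * d i0 x); omega
    rw [← mul_sum] at e2
    simp only [hv i0 x, if_pos hx] at e1 e2 this
    omega
  have t : ∀ j, ∑ x ∈ S, (V j x - W j x) ^ 2 = 2 := by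
    intro j
    have : (V j - W j) ⬝ᵥ (V j - W j) = 2 := by
      simp [sub_dotProduct, dotProduct_sub, h.vv, h.ww, h.vw, h.symm.vw]
    rw [dot_split S, sum_eq_zero (s := Sᶜ) fun x hx => by
      simp [sup h j x (mem_compl.1 hx), sup h.symm j x (mem_compl.1 hx)], add_zero] at this
    rw [← this]
    exact sum_congr rfl fun x _ => by simp [sq]
  have := sum_le_sum b
  rw [sum_comm] at this
  simp [t, h9, hJ] at this

variable {S : Finset ι} {E : κ → ι} (s : Six d S E) (hJ : Fintype.card J + Fintype.card κ = 6)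
include s hJ

theorem e0 (j : J) : V j (E i0) = 1 := by
  by_contra ne
  have := h.bes (E i0)
  have d0 : d i0 (E i0) = -2 := by rw [s.val, if_pos (s.mem _), if_pos rfl]
  have e1 : ∑ i, 6 * d i (E i0) ^ 2 = (6 * Fintype.card κ + 18 : ℤ) := by
    rw [sum_congr rfl (g := fun i => (6 + if i = i0 then 18 else 0 : ℤ)) fun i _ => by
      rw [s.val, if_pos (s.mem _)]
      by_cases e : i = i0
      · simp [e]
      · rw [if_neg fun e' => e (s.inj e').symm, if_neg e]; norm_num]
    simp [sum_add_distrib, mul_comm]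
  have e2 : ∑ k, (4 + if k = j then 12 else 0 : ℤ) ≤
      ∑ k, (27 * (V k (E i0) - W k (E i0)) ^ 2 + (3 * (V k (E i0) + W k (E i0)) + 2 * d i0 (E i0)) ^ 2) := by
    refine sum_le_sum fun k _ => ?_
    rw [d0]
    have q := sq_nonneg (3 * (V k (E i0) + W k (E i0)) + 2 * -2)
    by_cases e : V k (E i0) = W k (E i0)
    · rw [← e]
      split_ifs with e'
      · rw [e']
        rcases lt_or_gt_of_ne ne with l | l <;> nlinarith
      · rcases le_or_gt (V k (E i0)) 0 with l | l <;> nlinarith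
    · have : 0 < (V k (E i0) - W k (E i0)) ^ 2 := by
        have := sub_ne_zero.2 e; positivity
      split_ifs <;> omega
  have : Nonempty κ := ⟨i0⟩
  have := Fintype.card_pos (α := κ)
  simp [sum_add_distrib] at e2
  simp only [sum_add_distrib] at *
  omega

theorem shape (j : J) : (∃ F ∈ S, F ∉ Set.range E ∧ ∀ x ∈ S, V j x =
    if x = E i0 then 1 else if x = F then -1 else 0) ∧ ∑ x ∈ Sᶜ, V j x * V j x = 1 := by
  have e0 := h.e0 s hJ j
  have s0 : ∑ x ∈ S, V j x = 0 := by have := h.vd j i0; rw [s.dot, if_pos rfl, e0] at this; omega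
  have e1 := h.vv j j
  rw [if_pos rfl, dot_split S, ← add_sum_erase S _ (s.mem i0), e0] at e1
  rw [← add_sum_erase S _ (s.mem i0), e0] at s0
  have p : ∀ y : ℤ, 0 ≤ y * y + y ∧ (y * y + y) % 2 = 0 := fun y =>
    ⟨by rcases le_or_gt 0 y with e | e <;> nlinarith, by
      have := Int.even_mul_succ_self y
      rw [Int.even_iff] at this; rw [← this]; congr 1; ring⟩
  have n1 : 0 ≤ ∑ x ∈ Sᶜ, V j x * V j x := sum_nonneg fun x _ => mul_self_nonneg _
  have n2 : 0 ≤ ∑ x ∈ S.erase (E i0), (V j x * V j x + V j x) := sum_nonneg fun x _ => (p _).1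
  have n3 : (2 : ℤ) ∣ ∑ x ∈ S.erase (E i0), (V j x * V j x + V j x) :=
    dvd_sum fun x _ => Int.dvd_of_emod_eq_zero (p _).2
  rw [sum_add_distrib] at n2 n3
  have n4 : ∑ x ∈ S.erase (E i0), V j x * V j x = 1 := by omega
  refine ⟨?_, by omega⟩
  obtain ⟨F, hF, ne⟩ := exists_ne_zero_of_sum_ne_zero (n4.trans_ne one_ne_zero)
  have z : ∀ x ∈ (S.erase (E i0)).erase F, V j x = 0 := by
    rw [← add_sum_erase _ _ hF] at n4
    have : 0 < V j F * V j F := lt_of_le_of_ne (mul_self_nonneg _) ne.symm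
    have n5 : 0 ≤ ∑ x ∈ (S.erase (E i0)).erase F, V j x * V j x :=
      sum_nonneg fun x _ => mul_self_nonneg _
    intro x hx
    exact mul_self_eq_zero.1 ((sum_eq_zero_iff_of_nonneg fun x _ => mul_self_nonneg (V j x)).1
      (by omega) x hx)
  have vF : V j F = -1 := by rw [← add_sum_erase _ _ hF, sum_eq_zero z] at s0; omega
  refine ⟨F, mem_of_mem_erase hF, ?_, fun x hx => ?_⟩
  · rintro ⟨i, rfl⟩
    have := h.vd j i
    rw [s.dot, vF, ← add_sum_erase S _ (s.mem i0), e0, s0] at this
    split_ifs at this with e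
    · exact (mem_erase.1 hF).1 (by rw [e])
    · omega
  · split_ifs with a b
    · rw [a, e0]
    · rw [b, vF]
    · exact z x (mem_erase.2 ⟨b, mem_erase.2 ⟨a, hx⟩⟩)

theorem count (cov : ∀ x ∉ S, ∃ j, V j x ≠ 0 ∨ W j x ≠ 0) : Sᶜ.card = 2 * Fintype.card J := by
  let Q : J → ι → ℤ := fun j x => V j x * V j x - V j x * W j x + W j x * W j x
  have Q0 : ∀ j x, 0 ≤ Q j x := fun j x => by
    have := sq_nonneg (2 * V j x - W j x); have := sq_nonneg (W j x); simp only [Q]; nlinarith
  have Q1 : ∀ j x, V j x ≠ 0 ∨ W j x ≠ 0 → 1 ≤ Q j x := fun j x hx => by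
    have := sq_nonneg (2 * V j x - W j x); have := sq_nonneg (2 * W j x - V j x)
    rcases hx with e | e
    · have : 0 < V j x ^ 2 := by positivity
      simp only [Q]; nlinarith
    · have : 0 < W j x ^ 2 := by positivity
      simp only [Q]; nlinarith
  have b : ∀ x ∉ S, ∑ j, Q j x ≤ 1 := by
    intro x hx
    have := h.bes x
    simp only [s.val _ x, if_neg hx] at this
    rw [sum_congr rfl (g := fun j => 36 * Q j x) fun j _ => by simp only [Q]; ring, ← mul_sum] at this
    simp at this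
    omega
  have b1 : ∀ x ∉ S, ∑ j, Q j x = 1 := fun x hx => by
    obtain ⟨j, hj⟩ := cov x hx
    exact le_antisymm (b x hx) ((Q1 j x hj).trans
      (single_le_sum (f := fun j => Q j x) (fun j _ => Q0 j x) (mem_univ j)))
  have o : ∀ j k, j ≠ k → ∀ x ∉ S, (V j x = 0 ∧ W j x = 0) ∨ (V k x = 0 ∧ W k x = 0) := by
    intro j k ne x hx
    by_contra c
    have := sum_le_sum_of_subset_of_nonneg (f := fun j => Q j x) (subset_univ {j, k})
      fun y _ _ => Q0 y x
    rw [sum_pair ne] at this
    have := b x hx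
    have := Q1 j x (by tauto)
    have := Q1 k x (by tauto)
    omega
  choose F hF nF vF using fun j => (h.shape s hJ j).1
  choose F' hF' nF' wF using fun j => (h.symm.shape s hJ j).1
  have pr : ∀ {A B : ι → ℤ} {a b : ι}, a ∈ S → a ∉ Set.range E → b ∉ Set.range E →
      (∀ x ∈ S, A x = if x = E i0 then 1 else if x = a then -1 else 0) →
      (∀ x ∈ S, B x = if x = E i0 then 1 else if x = b then -1 else 0) →
      ∑ x ∈ S, A x * B x = 1 + if a = b then 1 else 0 := by
    intro A B a b ha na nb hA hB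
    have na' : a ≠ E i0 := fun e => na ⟨i0, e.symm⟩
    rw [sum_congr rfl (g := fun x => (if x = E i0 then 1 else 0) +
      if x = a then (if a = b then 1 else 0) else 0) fun x hx => by
        rw [hA x hx, hB x hx]
        by_cases e1 : x = E i0
        · simp [e1, na'.symm]
        · by_cases e2 : x = a
          · subst e2; simp [e1]
          · simp [e1, e2], sum_add_distrib, sum_ite_eq', sum_ite_eq', if_pos (s.mem _), if_pos ha]
  have inj : Function.Injective F := fun j k e => by
    by_contra ne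
    have := h.vv j k
    rw [if_neg ne, dot_split S, pr (hF j) (nF j) (nF k) (vF j) (vF k), if_pos e,
      sum_eq_zero fun x hx => by rcases o j k ne x (mem_compl.1 hx) with a | a <;> simp [a.1]] at this
    omega
  have im : univ.image F = S \ univ.image E := by
    refine eq_of_subset_of_card_le (fun x hx => ?_) ?_
    · obtain ⟨j, -, rfl⟩ := mem_image.1 hx
      exact mem_sdiff.2 ⟨hF j, fun c => nF j (by simpa using c)⟩
    · rw [card_sdiff_of_subset (image_subset_iff.2 fun i _ => s.mem i), card_image_of_injective _ inj,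
        card_image_of_injective _ s.inj, s.card, card_univ, card_univ]
      omega
  have ff : ∀ j, F j = F' j := by
    intro j
    have : F' j ∈ univ.image F := im ▸ mem_sdiff.2 ⟨hF' j, fun c => nF' j (by simpa using c)⟩
    obtain ⟨k, -, e⟩ := mem_image.1 this
    by_cases ne : k = j
    · rw [← e, ne]
    · have := h.vw k j
      rw [if_neg ne, dot_split S, pr (hF k) (nF k) (nF' j) (vF k) (wF j), if_pos e,
        sum_eq_zero fun x hx => by
          rcases o k j ne x (mem_compl.1 hx) with a | a <;> simp [a.1, a.2]] at this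
      omega
  have t : ∀ j, ∑ x ∈ Sᶜ, Q j x = 2 := by
    intro j
    have := h.vw j j
    rw [if_pos rfl, dot_split S, pr (hF j) (nF j) (nF' j) (vF j) (wF j), if_pos (ff j)] at this
    simp only [Q, sum_add_distrib, sum_sub_distrib, (h.shape s hJ j).2, (h.symm.shape s hJ j).2]
    omega
  have : ∑ x ∈ Sᶜ, ∑ j, Q j x = Sᶜ.card := by
    rw [sum_congr rfl fun x hx => b1 x (mem_compl.1 hx)]; simp
  rw [sum_comm] at this
  simp [t] at this
  omega

end Pr

/-- vectors of norm one in the lattice -/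
theorem unit_vec (hl : Fintype.card J % 3 ≠ 0) (y : J → ℤ) (c : ℤ)
    (h : ∑ j, (3 * y j - c) ^ 2 = 9) : ∃ j, ∃ δ : ℤ, (δ = 1 ∨ δ = -1) ∧
      ∀ k, 3 * y k - c = if k = j then 3 * δ else 0 := by
  have c3 : c % 3 = 0 := by
    by_contra ne
    have : (3 : ℤ) ∣ ∑ j, ((3 * y j - c) ^ 2 - 1) := dvd_sum fun j _ => by
      have : c % 3 = 1 ∨ c % 3 = 2 := by omega
      obtain ⟨t, ht⟩ : ∃ t, c = 3 * t + c % 3 := ⟨c / 3, by omega⟩
      rcases this with e | e <;> rw [ht, e]
      · exact ⟨3 * (y j - t) ^ 2 - 2 * (y j - t), by ring⟩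
      · exact ⟨3 * (y j - t) ^ 2 - 4 * (y j - t) + 1, by ring⟩
    rw [sum_sub_distrib, h] at this
    simp at this
    omega
  obtain ⟨t, rfl⟩ : ∃ t, c = 3 * t := ⟨c / 3, by omega⟩
  have h1 : ∑ j, (y j - t) * (y j - t) = 1 := by
    rw [sum_congr rfl (g := fun j => 9 * ((y j - t) * (y j - t))) fun j _ => by ring, ← mul_sum] at h
    omega
  obtain ⟨j, -, ne⟩ := exists_ne_zero_of_sum_ne_zero (h1.trans_ne one_ne_zero)
  rw [← add_sum_erase _ _ (mem_univ j)] at h1
  have : 0 < (y j - t) * (y j - t) := lt_of_le_of_ne (mul_self_nonneg _) ne.symm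
  have n5 : 0 ≤ ∑ x ∈ univ.erase j, (y x - t) * (y x - t) := sum_nonneg fun x _ => mul_self_nonneg _
  refine ⟨j, y j - t, mul_self_eq_one_iff.1 (by omega), fun k => ?_⟩
  split_ifs with e
  · rw [e]; ring
  · have := mul_self_eq_zero.1 ((sum_eq_zero_iff_of_nonneg fun x _ => mul_self_nonneg (y x - t)).1
      (by omega : ∑ x ∈ univ.erase j, (y x - t) * (y x - t) = 0) k (mem_erase.2 ⟨e, mem_univ _⟩))
    omega

end CF.X3
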