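/-
Columns of the principal 3-block at the noncentral classes.
-/
import Cfsg.Agent.X3.Lat
import Cfsg.Agent.X3.Grp
import Cfsg.Agent.ABGc.Vec
import Cfsg.Agent.BlockB.Column
import Cfsg.Agent.BlockB.Slice
import Cfsg.Agent.Char.Galois
set_option autoImplicit false
set_option linter.unusedSectionVars false

namespace CF.X3
open Cfsg CF.Char CF.BlockB CF.ABGc Finset Subgroup
open scoped ComplexConjugate Classical

variable {M : Ideal AlgInt} {G : Type*} [Group G] [Fintype G] {κ : Type*} [Fintype κ]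

theorem val3 {χ : G → ℂ} (h : IsCharacter G χ) {u : G} (o : orderOf u = 3) (r : IsConj u u⁻¹) :
    ∃ n : ℤ, χ u = n ∧ n % 3 = (charDegree χ : ℤ) % 3 := by
  obtain ⟨n, ω, h0, h1, h2⟩ := char_exists_roots h u
  have : ∀ i, ∃ k : ℤ, ω i + (ω i)⁻¹ = 2 - 3 * k := fun i => by
    have e := h1 i
    rw [o] at e
    by_cases a : ω i = 1
    · exact ⟨0, by rw [a]; norm_num⟩
    · have : ω i ^ 2 + ω i + 1 = 0 := mul_left_cancel₀ (sub_ne_zero.2 a) (by linear_combination e)
      exact ⟨1, by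
        rw [inv_eq_of_mul_eq_one_right (show ω i * ω i ^ 2 = 1 by linear_combination e)]
        push_cast; linear_combination this⟩
  choose k hk using this
  have e : 2 * χ u = 2 * n - 3 * (∑ i, k i : ℤ) := by
    have e1 := h2 1
    have e2 := h2 (-1)
    rw [zpow_neg_one, ← classFun_of_isConj (char_isClassFunction h) r] at e2
    simp only [zpow_one, zpow_neg_one] at e1 e2
    rw [two_mul]; nth_rewrite 1 [e1]
    rw [e2, ← sum_add_distrib]
    simp [hk, sum_sub_distrib, ← mul_sum]; ring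
  have e' : χ u = ((n - 3 * (∑ i, k i : ℤ) / 2 : ℚ) : ℂ) := by
    push_cast at e ⊢; linear_combination e / 2
  obtain ⟨m, hm⟩ := int_of_isIntegral_rat (e' ▸ char_isIntegral h u)
  refine ⟨m, by rw [e', hm]; simp, ?_⟩
  have : (2 * m : ℚ) = 2 * n - 3 * (∑ i, k i : ℤ) := by rw [← hm]; ring
  have : 2 * m = 2 * (n : ℤ) - 3 * ∑ i, k i := by exact_mod_cast this
  rw [charDegree_of_eq h0]
  omega

/-- the sign normalising the degree modulo three -/
noncomputable def sg (χ : Ix M G) : ℤ := if charDegree (χ.1 : G → ℂ) % 3 = 2 then -1 else 1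

theorem sg_sq (χ : Ix M G) : sg χ * sg χ = 1 := by unfold sg; split_ifs <;> rfl

noncomputable def fe : (Ix M G → ℤ) →+ (G → ℂ) := fn.comp (AddMonoidHom.mulLeft sg)

theorem fe_def (v : Ix M G → ℤ) : fe v = fn (sg * v) := rfl
theorem fe_gen (v : Ix M G → ℤ) : IsGeneralizedCharacter G (fe v) := fn_gen _
theorem fe_span (v : Ix M G → ℤ) : InSpan (PB M G) (fe v) := fn_span _

theorem inner_fe (v w : Ix M G → ℤ) : classInner (fe v) (fe w) = (v ⬝ᵥ w : ℤ) := by
  rw [fe_def, fe_def, inner_fn]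
  congr 1
  exact sum_congr rfl fun χ _ => by
    simp only [Pi.mul_apply]; linear_combination (v χ * w χ) * sg_sq χ

theorem inner_fe_irr (v : Ix M G → ℤ) (χ : Ix M G) : classInner (fe v) χ.1 = (sg χ * v χ : ℤ) :=
  inner_fn_irr _ _

theorem exists_fe {θ : G → ℂ} (h : InSpan (PB M G) θ) (h' : IsGeneralizedCharacter G θ) :
    ∃ v : Ix M G → ℤ, fe v = θ := by
  obtain ⟨v, rfl⟩ := exists_fn h h'
  exact ⟨sg * v, by
    rw [fe_def, ← mul_assoc, show (sg * sg : Ix M G → ℤ) = 1 from funext sg_sq, one_mul]⟩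

theorem fe_single (χ : Ix M G) : fe (Pi.single χ (sg χ)) = χ.1 := by
  rw [fe_def, fn_def, sum_eq_single χ (fun ξ _ ne => by simp [Pi.single_eq_of_ne ne]) (by simp)]
  simp [sg_sq]

/-- characters of degree prime to three -/
noncomputable def S0 (M : Ideal AlgInt) (G : Type*) [Group G] [Fintype G] : Finset (Ix M G) :=
  univ.filter fun χ => ¬ 3 ∣ charDegree (χ.1 : G → ℂ)

noncomputable def dv (U : κ → G) (i : κ) (χ : Ix M G) : ℤ := sg χ * ⌊((χ.1 : G → ℂ) (U i)).re⌋

variable (hM : IsPModular 3 M) {z : G} {U : κ → G}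
include hM

theorem span_apply_U (f : Fu z U) {θ : G → ℂ} (h : InSpan (PB M G) θ) {i : κ} {g : G}
    (c : IsConj (U i) (pPart 3 g)) : θ g = θ (U i) := by
  obtain ⟨N, _, a, b⟩ := f.npc i
  rw [InSpan.apply_pb h, InSpan.apply_pb h (U i)]
  exact sum_congr rfl fun χ hχ => by
    rw [pb_apply_eq_of_npc hM ⟨1, f.ou i⟩ N a b c (mem_pb.1 hχ)]

theorem gam_U (f : Fu z U) (i : κ) (g : G) :
    Gam M (U i) g = if IsConj (U i) (pPart 3 g) then 9 else 0 := by
  have p := pPart_of_pElement (p := 3) p3 ⟨1, f.ou i⟩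
  split_ifs with c
  · obtain ⟨N, _, a, b⟩ := f.npc i
    have := sum_pb_section_norm_sq_of_npc hM ⟨1, f.ou i⟩ N a b 1 (by simp)
    rw [span_apply_U hM f (inSpan_Gam _) c, Gam_apply, sum_mul_conj_eq_sum_norm_sq]
    simp only [OneMemClass.coe_one, mul_one, b] at this
    rw [this]; norm_num
  · rw [Gam_apply, pb_orth hM (by rw [p]; exact fun e => c e.symm)]

theorem gam_UU (f : Fu z U) (i j : κ) : Gam M (U i) (U j) = if i = j then 9 else 0 := by
  rw [gam_U hM f, pPart_of_pElement p3 ⟨1, f.ou j⟩]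
  exact if_congr ⟨f.uu i j, fun e => e ▸ IsConj.refl _⟩ rfl rfl

theorem gam_reg (f : Fu z U) (i : κ) {g : G} (hg : ¬ 3 ∣ orderOf g) : Gam M (U i) g = 0 := by
  rw [gam_U hM f, pPart_of_pRegular p3 hg, if_neg]
  intro c
  have := f.ou i
  rw [isConj_one_left.1 c, orderOf_one] at this
  omega

variable (f : Fu z U) (re : ∀ i, IsConj (U i) (U i)⁻¹)
include f re

theorem dv_spec (i : κ) (χ : Ix M G) : (χ.1 : G → ℂ) (U i) = (sg χ * dv U i χ : ℤ) ∧
    dv U i χ % 3 = if χ ∈ S0 M G then 1 else 0 := by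
  obtain ⟨n, e, e'⟩ := val3 (irr_isCharacter χ.1.2) (f.ou i) (re i)
  have : dv U i χ = sg χ * n := by simp [dv, e]
  rw [this, ← mul_assoc, sg_sq, one_mul]
  refine ⟨e, ?_⟩
  simp only [S0, mem_filter, mem_univ, true_and, sg]
  split_ifs <;> omega

theorem fe_dv (i : κ) : fe (dv (M := M) U i) = Gam M (U i) := by
  rw [fe_def, fn_def, Gam, ← sum_coe_sort (pb M G)]
  exact sum_congr rfl fun χ _ => by rw [(dv_spec hM f re i χ).1]; simp

theorem fe_U (v : Ix M G → ℤ) (i : κ) : fe v (U i) = (v ⬝ᵥ dv U i : ℤ) := by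
  rw [← inner_fe, fe_dv hM f re, inner_Gam (fe_span v)]

theorem dv_dv (i j : κ) : dv (M := M) U i ⬝ᵥ dv U j = if i = j then 9 else 0 := by
  have := fe_U hM f re (dv U i) j
  rw [fe_dv hM f re, gam_UU hM f] at this
  split_ifs at this ⊢ <;> exact_mod_cast this.symm

theorem dv_cases [Nonempty κ] : (∃ E, Six (dv U) (S0 M G) E) ∨ (Fintype.card κ = 1 ∧
    (S0 M G).card = 9 ∧ ∀ i x, dv U i x = if x ∈ S0 M G then 1 else 0) := by
  let o : Ix M G := ⟨oneIrr G, oneIrr_mem_pb hM⟩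
  have so : sg o = 1 := by simp [sg, o, charDegree_oneIrr]
  refine six_or_nine _ _ o (by simp [S0, o, charDegree_oneIrr]) (dv_dv hM f re)
    (fun i x hx => by rw [(dv_spec hM f re i x).2, if_pos hx])
    (fun i x hx => by rw [(dv_spec hM f re i x).2, if_neg hx]) (fun i => ?_) fun i => ?_
  · simp [dv, so, o]
  · refine ⟨fun χ => sg χ * charDegree (χ.1 : G → ℂ), by simp [so, o, charDegree_oneIrr], ?_⟩
    have := gam_reg hM f i (g := 1) (by simp)
    rw [Gam_apply, ← sum_coe_sort (pb M G)] at this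
    rw [← Int.cast_inj (α := ℂ), Int.cast_zero, ← this, dotProduct, Int.cast_sum]
    refine sum_congr rfl fun χ _ => ?_
    rw [(dv_spec hM f re i χ).1, ← charDegree_eq (irr_isCharacter χ.1.2)]
    simp; ring

theorem dv_zero [Nonempty κ] (i : κ) {χ : Ix M G} (h : χ ∉ S0 M G) : dv U i χ = 0 := by
  rcases dv_cases hM f re with ⟨E, s⟩ | ⟨-, -, s⟩
  · rw [s.val, if_neg h]
  · rw [s, if_neg h]

end CF.X3
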