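/-
The principal 3-block when the centre of the Sylow subgroup is central.
-/
import Cfsg.Agent.X3.Ch1
set_option autoImplicit false
set_option linter.unusedSectionVars false

namespace CF.X3
open Cfsg CF.Char CF.BlockB CF.ABGc Finset Subgroup
open scoped ComplexConjugate Classical

variable {M : Ideal AlgInt} {G : Type*} [Group G] [Fintype G] {κ : Type*} [Fintype κ]
  {z : G} {U : κ → G} {a b : ℂ} {θ φ : G → ℂ}

local notation "R" => pRegularPart 3

def Ty (z : G) (a : ℂ) (θ : G → ℂ) : Prop := ∀ g, θ (z * g) = a * θ g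

def tw (z : G) (a : ℂ) (θ : G → ℂ) : G → ℂ := fun g => θ g + a * θ (z⁻¹ * g) + a ^ 2 * θ (z * g)

theorem tw_smul (c : ℂ) : tw z a (c • θ) = c • tw z a θ := by
  ext g; simp [tw]; ring

theorem tw_sum {ι : Type*} (s : Finset ι) (f : ι → G → ℂ) :
    tw z a (∑ i ∈ s, f i) = ∑ i ∈ s, tw z a (f i) := by
  ext g; simp [tw, mul_sum, sum_add_distrib]

theorem cube_conj (h : a ^ 3 = 1) : conj a = a ^ 2 := by
  rw [← inv_eq_conj_of_pow_eq_one (by norm_num) h]
  exact inv_eq_of_mul_eq_one_right (by linear_combination h)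

theorem cube_sum (h : a ^ 3 = 1) (n : a ≠ 1) : 1 + a + a ^ 2 = 0 :=
  mul_left_cancel₀ (sub_ne_zero.2 n) (by linear_combination h)

theorem inner_shift (θ φ : G → ℂ) (x : G) :
    classInner (fun g => θ (x * g)) φ = classInner θ fun g => φ (x⁻¹ * g) := by
  rw [inner_def, inner_def, ← Equiv.sum_comp (Equiv.mulLeft x⁻¹)]
  simp

theorem Ty.inv (h : Ty z a θ) (ha : a ^ 3 = 1) (g : G) : θ (z⁻¹ * g) = a ^ 2 * θ g := by
  have := h (z⁻¹ * g)
  rw [mul_inv_cancel_left] at this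
  rw [this]; linear_combination (-θ (z⁻¹ * g)) * ha

theorem inner_tw (ha : a ^ 3 = 1) (hb : b ^ 3 = 1) (h : Ty z b φ) (θ : G → ℂ) :
    classInner (tw z a θ) φ = if a = b then 3 * classInner θ φ else 0 := by
  have : tw z a θ = θ + a • (fun g => θ (z⁻¹ * g)) + a ^ 2 • fun g => θ (z * g) := rfl
  rw [this, Char.inner_add_left, Char.inner_add_left, Char.inner_smul_left, Char.inner_smul_left,
    inner_shift, inner_shift, inv_inv, show (fun g => φ (z * g)) = b • φ from funext h,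
    show (fun g => φ (z⁻¹ * g)) = b ^ 2 • φ from funext (h.inv hb), Char.inner_smul_right,
    Char.inner_smul_right, map_pow, cube_conj hb]
  split_ifs with e
  · subst e; linear_combination (classInner θ φ * (2 + a ^ 3)) * ha
  · have := cube_sum (a := a * b ^ 2) (by linear_combination b ^ 6 * ha + (b ^ 3 + 1) * hb)
      fun c => e (by linear_combination b * c - a * hb)
    linear_combination classInner θ φ * this

theorem Ty.inner_eq_zero (ha : a ^ 3 = 1) (hb : b ^ 3 = 1) (h : Ty z a θ) (k : Ty z b φ)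
    (ne : a ≠ b) : classInner θ φ = 0 := by
  have := inner_tw ha hb k θ
  rw [if_neg ne, show tw z a θ = (3 : ℂ) • θ from funext fun g => by
    simp only [tw, h g, h.inv ha, Pi.smul_apply, smul_eq_mul]; linear_combination 2 * θ g * ha,
    Char.inner_smul_left] at this
  simpa using this

theorem tw_ty (o : orderOf z = 3) (ha : a ^ 3 = 1) (θ : G → ℂ) : Ty z a (tw z a θ) := fun g => by
  have : z * (z * g) = z⁻¹ * g := by
    rw [eq_inv_mul_iff_mul_eq, ← mul_assoc, ← mul_assoc, ← pow_three', ← o, pow_orderOf_eq_one, one_mul]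
  simp only [tw, this, inv_mul_cancel_left]
  linear_combination (-θ (z * g)) * ha

noncomputable def lam (z : G) (χ : IrrCharacter G) : ℂ := (χ : G → ℂ) z / (χ : G → ℂ) 1

theorem lam_ty (hz : z ∈ center G) (χ : IrrCharacter G) : Ty z (lam z χ) χ :=
  char_mul_of_mem_charCenter (irr_one_ne_zero χ.2) (center_le_charCenter χ.2 hz)

theorem lam_cube (hz : z ∈ center G) (o : orderOf z = 3) (χ : IrrCharacter G) : lam z χ ^ 3 = 1 := by
  have h := lam_ty hz χ
  have : (χ : G → ℂ) (z * (z * (z * 1))) = lam z χ ^ 3 * (χ : G → ℂ) 1 := by rw [h, h, h]; ring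
  rw [mul_one, ← pow_three, ← o, pow_orderOf_eq_one, o] at this
  exact mul_right_cancel₀ (irr_one_ne_zero χ.2) (this.symm.trans (one_mul _).symm)

theorem pPart_central (hz : z ∈ center G) (o : orderOf z = 3) (g : G) :
    pPart 3 (z * g) = z * pPart 3 g ∧ pReg 3 (z * g) = pReg 3 g := by
  obtain ⟨k, hk⟩ := pPart_pElement (p := 3) p3 g
  have c : ∀ y, Commute z y := fun y => (mem_center_iff.1 hz y).symm
  have e : ∃ j, orderOf (z * pPart 3 g) = 3 ^ j := by
    obtain ⟨j, -, e⟩ := (Nat.dvd_prime_pow p3).1 (orderOf_dvd_of_pow_eq_one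
      (show (z * pPart 3 g) ^ 3 ^ (k + 1) = 1 by
        rw [(c _).mul_pow, pow_succ' 3, pow_mul, ← o, pow_orderOf_eq_one, o, ← pow_succ' 3, pow_succ 3,
          pow_mul, ← hk, pow_orderOf_eq_one]; simp))
    exact ⟨j, e⟩
  have c' : Commute (z * pPart 3 g) (pReg 3 g) := (c _).mul_left (commute_pPart_pReg g)
  rw [show z * g = z * pPart 3 g * pReg 3 g by rw [mul_assoc, pPart_mul_pReg]]
  exact ⟨pPart_mul_of_commute p3 c' e (pReg_pRegular p3 g), pReg_mul_of_commute p3 c' e (pReg_pRegular p3 g)⟩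

theorem R_eq (θ : G → ℂ) (g : G) : R θ g = if pPart 3 g = 1 then θ g else 0 := by
  rw [reg_apply]; simp only [pPart_eq_one_iff p3, ite_not]

variable (hM : IsPModular 3 M) (f : Fu z U) (hz : z ∈ center G)
include hM f hz

theorem tw_span (ha : a ^ 3 = 1) (h : InSpan (PB M G) θ) : InSpan (PB M G) (tw z a θ) := by
  have c : ∀ x ∈ center G, ∀ g y : G, θ (x * (y * g * y⁻¹)) = θ (x * g) := fun x hx g y => by
    rw [← classFun_conj h.classFun (x * g) y, ← mul_assoc, ← mul_assoc, ← mem_center_iff.1 hx y,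
      mul_assoc y]
  refine inSpan_iff.2 ⟨isClassFunction_iff_isConj.2 fun g g' e => ?_, fun ξ hξ => ?_⟩
  · obtain ⟨y, rfl⟩ := isConj_iff.1 e
    simp only [tw, c _ hz, c _ (inv_mem hz), classFun_conj h.classFun]
  · rw [inner_tw ha (lam_cube hz f.oz ξ) (lam_ty hz ξ), h.inner_eq_zero hξ]; simp

theorem tw_reg {g : G} (hg : pPart 3 g = 1) : tw z a (R θ) g = θ g := by
  have z1 : z ≠ 1 := fun e => by have := f.oz; rw [e, orderOf_one] at this; omega
  simp [tw, R_eq, (pPart_central hz f.oz g).1, (pPart_central (inv_mem hz) (by simp [f.oz]) g).1, hg, z1]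

theorem R_tw : R (tw z a (R θ)) = R θ := by
  ext g
  rw [R_eq, R_eq θ]
  split_ifs with e
  · exact tw_reg hM f hz e
  · rfl

theorem tw_U {i : κ} {g : G} (c : IsConj (U i) (pPart 3 g)) : tw z a (R θ) g = 0 := by
  have n1 : pPart 3 g ≠ 1 := fun e => by
    have := f.ou i; rw [e] at c; rw [isConj_one_left.1 c, orderOf_one] at this; omega
  have n2 : z * pPart 3 g ≠ 1 := fun e => f.zu' i (by
    rw [eq_inv_of_mul_eq_one_right e] at c; exact c.symm)
  have n3 : z⁻¹ * pPart 3 g ≠ 1 := fun e => f.zu i (by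
    rw [← inv_mul_eq_one.1 e] at c; exact c.symm)
  simp [tw, R_eq, (pPart_central hz f.oz g).1, (pPart_central (inv_mem hz) (by simp [f.oz]) g).1,
    n1, n2, n3]

theorem decomp (ha : a ^ 3 = 1) (h : InSpan (PB M G) θ) (t : Ty z a θ) :
    θ = tw z a (R θ) + ∑ i, (θ (U i) / 9) • Gam M (U i) := by
  ext g
  have cz : ∀ x ∈ center G, ∀ y, IsConj x y → y = x := fun x hx y c => by
    obtain ⟨w, rfl⟩ := isConj_iff.1 c
    rw [mem_center_iff.1 hx w]; group
  have key : ∀ x, (∀ i, ¬ IsConj (U i) (pPart 3 x)) → θ x = tw z a (R θ) x →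
      θ x = (tw z a (R θ) + ∑ i, (θ (U i) / 9) • Gam M (U i)) x := fun x hx e => by
    simp [Finset.sum_apply, gam_U hM f, hx, ← e, -isConj_iff]
  have tt := tw_ty f.oz ha (R θ)
  rcases f.rep _ (pPart_pElement p3 g) with e | e | e | ⟨i, e⟩
  · refine key g (fun i c => ?_) (tw_reg hM f hz e).symm
    have := f.ou i; rw [e] at c; rw [isConj_one_left.1 c, orderOf_one] at this; omega
  · have e' := cz _ hz _ e
    have e2 : pPart 3 (z⁻¹ * g) = 1 := by
      rw [(pPart_central (inv_mem hz) (by simp [f.oz]) g).1, e', inv_mul_cancel]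
    refine key g (fun i c => f.zu i (e' ▸ c.symm)) ?_
    rw [← mul_inv_cancel_left z g, t, tt, tw_reg hM f hz e2]
  · have e' := cz _ (inv_mem hz) _ e
    have e2 : pPart 3 (z * g) = 1 := by rw [(pPart_central hz f.oz g).1, e', mul_inv_cancel]
    refine key g (fun i c => f.zu' i (e' ▸ c.symm)) ?_
    rw [← inv_mul_cancel_left z g, t.inv ha, tt.inv ha, tw_reg hM f hz e2]
  · rw [Pi.add_apply, tw_U hM f hz e, zero_add, Finset.sum_apply, sum_eq_single i (fun j _ ne => by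
      simp only [Pi.smul_apply, gam_U hM f, if_neg fun c : IsConj (U j) (pPart 3 g) => ne (f.uu j i (c.trans e.symm)), smul_zero])
      (by simp), span_apply_U hM f h e]
    simp [gam_U hM f, e, -isConj_iff]

theorem inner_ty (ha : a ^ 3 = 1) (h : InSpan (PB M G) θ) (t : Ty z a θ) (h' : InSpan (PB M G) φ)
    (t' : Ty z a φ) :
    3 * classInner (R θ) φ = classInner θ φ - ∑ i, θ (U i) * conj (φ (U i)) / 9 := by
  have := congrArg (classInner · φ) (decomp hM f hz ha h t)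
  simp only [Char.inner_add_left, inner_tw ha ha t', if_true, inner_sum_left, Char.inner_smul_left,
    ← inner_conj_symm φ (Gam M _), inner_Gam h'] at this
  rw [this, add_sub_assoc, ← sum_sub_distrib, sum_eq_zero fun i _ => by ring, add_zero]

theorem exists_over (ha : a ^ 3 = 1) (h : InSpan (PB M G) θ) (ne : R θ ≠ 0) :
    ∃ ψ : Ix M G, lam z ψ.1 = a ∧ classInner (R θ) ψ.1 ≠ 0 := by
  have s := tw_span hM f hz ha (h.reg hM (nrm_eSet_pb hM))
  by_contra c
  push Not at c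
  refine ne ?_
  rw [← R_tw (a := a) hM f hz, eq_of_inner_pb s (inSpan_zero _) fun ψ hψ => ?_]
  · ext g; simp [R_eq]
  · rw [inner_tw ha (lam_cube hz f.oz ψ) (lam_ty hz ψ), Char.inner_zero_left]
    split_ifs with e
    · rw [c ⟨ψ, hψ⟩ e.symm, mul_zero]
    · rfl

variable (re : ∀ i, IsConj (U i) (U i)⁻¹) [Nonempty κ]
include re

theorem lam_iff (χ : Ix M G) : lam z χ.1 = 1 ↔ χ ∈ S0 M G := by
  obtain ⟨i⟩ := ‹Nonempty κ›
  have s := inSpan_irr (mem_pb.1 χ.2)
  refine ⟨fun e => by_contra fun c => ?_, fun hχ => ?_⟩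
  · have := inner_ty hM f hz (one_pow 3) s (e ▸ lam_ty hz χ.1)
      (inSpan_irr (mem_pb.1 (oneIrr_mem_pb hM))) fun g => by simp
    rw [inner_irr', if_neg fun e => c (by simp [S0, e, charDegree_oneIrr]), sum_eq_zero fun i _ => by
      rw [(dv_spec hM f re i χ).1, dv_zero hM f re i c]; simp] at this
    exact (mem_pb_iff_inner hM).1 (mem_pb.1 χ.2) (by simpa [coe_oneIrr] using this)
  · have e := lam_ty hz χ.1 (U i)
    rw [← classFun_of_isConj s.classFun (f.uz i)] at e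
    obtain ⟨e1, e2⟩ := dv_spec hM f re i χ
    rw [if_pos hχ] at e2
    refine mul_right_cancel₀ (b := (χ.1 : G → ℂ) (U i)) ?_ (by rw [← e, one_mul])
    rw [e1, Int.cast_ne_zero]
    exact mul_ne_zero (fun e => by have := sg_sq χ; simp [e] at this) (by omega)

theorem fe_ty {x : Ix M G → ℤ} (hx : ∀ χ ∉ S0 M G, x χ = 0) : Ty z 1 (fe x) := fun g => by
  simp only [fe_def, fn_def, Finset.sum_apply, Pi.smul_apply, smul_eq_mul, one_mul, Pi.mul_apply]
  refine sum_congr rfl fun χ _ => ?_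
  by_cases c : χ ∈ S0 M G
  · rw [lam_ty hz χ.1, (lam_iff hM f hz re χ).2 c, one_mul]
  · simp [hx χ c]

theorem exists_lift (χ : Ix M G) : ∃ x : Ix M G → ℤ, (∀ ξ ∉ S0 M G, x ξ = 0) ∧ R (fe x) = R χ.1 := by
  obtain ⟨x, e⟩ := exists_fe (inSpan_blockPart (PB M G) fun g => (χ.1 : G → ℂ) (pReg 3 g))
    (blockPart_isGen _ (gen_comp_pReg p3 (gen_of_irr χ.1.2)))
  refine ⟨x, fun ξ hξ => ?_, ?_⟩
  · have := inner_fe_irr x ξ
    rw [e, inner_blockPart_of_mem _ (mem_pb.1 ξ.2), Ty.inner_eq_zero (z := z) (one_pow 3)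
      (lam_cube hz f.oz ξ.1) (fun g => by rw [(pPart_central hz f.oz g).2, one_mul]) (lam_ty hz ξ.1)
      fun c => hξ ((lam_iff hM f hz re ξ).1 c.symm), eq_comm, Int.cast_eq_zero, mul_eq_zero] at this
    exact this.resolve_left fun e => by have := sg_sq ξ; simp [e] at this
  · rw [e, ← blockPart_reg hM (nrm_eSet_pb hM), reg_eq_iff.2 fun g hg => by rw [pReg_of_pRegular p3 hg],
      blockPart_reg hM (nrm_eSet_pb hM), blockPart_irr_of_mem (mem_pb.1 χ.2)]

theorem inner_R_fe {x y : Ix M G → ℤ} (hx : ∀ χ ∉ S0 M G, x χ = 0) (hy : ∀ χ ∉ S0 M G, y χ = 0) :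
    27 * classInner (R (fe x)) (R (fe y)) =
      (9 * (x ⬝ᵥ y) - ∑ i, (x ⬝ᵥ dv U i) * (y ⬝ᵥ dv U i) : ℤ) := by
  have := inner_ty hM f hz (one_pow 3) (fe_span x) (fe_ty hM f hz re hx) (fe_span y)
    (fe_ty hM f hz re hy)
  simp only [fe_U hM f re, inner_fe, map_intCast, ← sum_div] at this
  rw [inner_reg_reg]; push_cast at this ⊢
  linear_combination 9 * this

theorem inner_R_irr {χ : Ix M G} (h : χ ∉ S0 M G) :
    3 * classInner (R (χ.1 : G → ℂ)) (R χ.1) = 1 := by
  have s := inSpan_irr (mem_pb.1 χ.2)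
  rw [inner_reg_reg, inner_ty hM f hz (lam_cube hz f.oz χ.1) s (lam_ty hz _) s (lam_ty hz _),
    inner_irr', sum_eq_zero fun i _ => by rw [(dv_spec hM f re i χ).1, dv_zero hM f re i h]; simp]
  simp

theorem exists_six : ∃ E, Six (dv U) (S0 M G) E := by
  refine (dv_cases hM f re).resolve_right fun ⟨c, c9, s⟩ => ?_
  obtain ⟨w, hw⟩ : ∃ w : ℂ, IsPrimitiveRoot w 3 := ⟨_, Complex.isPrimitiveRoot_exp 3 (by norm_num)⟩
  obtain ⟨ψ, e, -⟩ := exists_over hM f hz hw.pow_eq_one (inSpan_irr (mem_pb.1 (oneIrr_mem_pb hM)))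
    fun c => by simpa [reg_one p3] using congrFun c 1
  have n : ψ ∉ S0 M G := fun c => hw.ne_one (by norm_num) (e ▸ (lam_iff hM f hz re ψ).2 c)
  obtain ⟨x, hx, e⟩ := exists_lift hM f hz re ψ
  have e1 := inner_R_fe hM f hz re hx hx
  obtain ⟨i, hi⟩ := Fintype.card_eq_one_iff.1 c
  rw [e, show (27 : ℂ) = 9 * 3 by norm_num, mul_assoc, inner_R_irr hM f hz re n,
    Fintype.sum_eq_single i fun j ne => (ne (hi j)).elim] at e1
  have e2 : 9 = 9 * (x ⬝ᵥ x) - (x ⬝ᵥ dv U i) * (x ⬝ᵥ dv U i) := by exact_mod_cast e1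
  have e3 : (2 : ℤ) ∣ x ⬝ᵥ x - x ⬝ᵥ dv U i := by
    rw [dotProduct, dotProduct, ← sum_sub_distrib]
    refine dvd_sum fun χ _ => ?_
    rw [s]
    split_ifs with c
    · have := Int.even_mul_pred_self (x χ)
      rw [mul_one, ← mul_sub_one]; exact this.two_dvd
    · simp [hx χ c]
  have := Int.even_mul_pred_self (x ⬝ᵥ dv U i)
  rw [mul_sub_one, Int.even_iff] at this
  have h3 : (3 : ℤ) ∣ x ⬝ᵥ dv U i := (Int.prime_three.dvd_mul.1 ⟨3 * (x ⬝ᵥ x) - 3, by omega⟩).elim id id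
  obtain ⟨t, ht⟩ := h3
  rw [ht] at e2 e3 this
  have := Int.even_mul_pred_self t
  rw [mul_sub_one, Int.even_iff] at this
  have : x ⬝ᵥ x = 1 + t * t := by nlinarith
  omega

end CF.X3
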