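/-
An orthonormal basis of the regular parts, and the transfer to the whole group.
-/
import Cfsg.Agent.X3.Ch2
set_option autoImplicit false
set_option linter.unusedSectionVars false

namespace CF.X3
open Cfsg CF.Char CF.BlockB CF.ABGc Finset Subgroup
open scoped ComplexConjugate Classical

section Lat
variable {ι κ : Type*} [Fintype ι] [DecidableEq ι] [Fintype κ] [DecidableEq κ] {d : κ → ι → ℤ} {S : Finset ι} {E : κ → ι}

abbrev JJ (S : Finset ι) (E : κ → ι) := {x // x ∈ S \ univ.image E}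

noncomputable def gv (i0 : κ) (j : JJ S E) : ι → ℤ := Pi.single j.1 1 - Pi.single (E i0) 1

variable (s : Six d S E) (i0 : κ)
include s

theorem Six.sum_S (F : ι → ℤ) : ∑ x ∈ S, F x = ∑ j : JJ S E, F j + ∑ i, F (E i) := by
  rw [sum_coe_sort (S \ univ.image E) F, ← sum_image (f := F) fun i _ j _ e => s.inj e,
    sum_sdiff (image_subset_iff.2 fun i _ => s.mem i)]

theorem Six.cardJ : Fintype.card (JJ S E) + Fintype.card κ = 6 := by
  have := s.sum_S fun _ => 1
  simp only [sum_const, s.card, card_univ] at this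
  simp only [nsmul_eq_mul, mul_one] at this
  omega

theorem Six.ne (j : JJ S E) (i : κ) : j.1 ≠ E i := fun e =>
  (mem_sdiff.1 j.2).2 (mem_image.2 ⟨i, mem_univ _, e.symm⟩)

theorem Six.gv_zero (j : JJ S E) : ∀ x ∉ S, gv i0 j x = 0 := fun x hx => by
  have a : x ≠ j.1 := fun e => hx (e ▸ (mem_sdiff.1 j.2).1)
  have b : x ≠ E i0 := fun e => hx (e ▸ s.mem i0)
  simp [gv, a, b]

theorem Six.gv_d (j : JJ S E) (i : κ) : gv i0 j ⬝ᵥ d i = if i = i0 then 3 else 0 := by
  simp only [gv, sub_dotProduct, single_dotProduct, one_mul, s.val, if_pos (mem_sdiff.1 j.2).1,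
    if_pos (s.mem _), if_neg (s.ne j i), s.inj.eq_iff, @eq_comm _ i0]
  split_ifs <;> rfl

theorem Six.gv_gv (j k : JJ S E) : gv i0 j ⬝ᵥ gv i0 k = if j = k then 2 else 1 := by
  simp only [gv, sub_dotProduct, single_dotProduct, one_mul, Pi.sub_apply, Pi.single_apply,
    if_neg (s.ne j i0), if_neg (s.ne k i0).symm, Subtype.val_inj, if_true]
  split_ifs <;> rfl

theorem Six.form {x : ι → ℤ} (j : JJ S E) :
    9 * (x ⬝ᵥ gv i0 j) - ∑ i, (x ⬝ᵥ d i) * (gv i0 j ⬝ᵥ d i) = 3 * (3 * x j - ∑ y ∈ S, x y) := by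
  simp only [s.gv_d, mul_ite, mul_zero, sum_ite_eq', mem_univ, if_true, s.dot x]
  simp only [gv, dotProduct_sub, dotProduct_single]
  ring

theorem Six.parseval {x : ι → ℤ} (hx : ∀ y ∉ S, x y = 0) :
    9 * (x ⬝ᵥ x) - ∑ i, (x ⬝ᵥ d i) * (x ⬝ᵥ d i) = ∑ j : JJ S E, (3 * x j - ∑ y ∈ S, x y) ^ 2 := by
  have c := s.sum_S x
  have n : (Fintype.card (JJ S E) : ℤ) + Fintype.card κ = 6 := by exact_mod_cast s.cardJ
  simp only [s.dot x]
  set t := ∑ y ∈ S, x y
  rw [dot_split S, sum_eq_zero (s := Sᶜ) fun y hy => by rw [hx y (mem_compl.1 hy), mul_zero],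
    s.sum_S, sum_congr rfl (f := fun i => (t - 3 * x (E i)) * (t - 3 * x (E i)))
      (g := fun i => 9 * (x (E i) * x (E i)) - 6 * t * x (E i) + t * t) fun i _ => by ring, sum_congr rfl (s₁ := (univ : Finset (JJ S E)))
      (f := fun j => (3 * x j - t) ^ 2) (g := fun j => 9 * (x j * x j) - 6 * t * x j + t * t)
      fun i _ => by ring]
  simp only [sum_add_distrib, sum_sub_distrib, ← mul_sum, sum_const, card_univ, nsmul_eq_mul]
  linear_combination (-6 * t) * c - t * t * n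

end Lat

variable {M : Ideal AlgInt} {G : Type*} [Group G] [Fintype G] {κ : Type*} [Fintype κ]
  {z : G} {U : κ → G} {a b : ℂ} {θ φ : G → ℂ}

local notation "R" => pRegularPart 3

section Cen
variable (hM : IsPModular 3 M) (f : Fu z U) (hz : z ∈ center G) (re : ∀ i, IsConj (U i) (U i)⁻¹)
  [Nonempty κ] {E : κ → Ix M G} (s : Six (dv U) (S0 M G) E) (i0 : κ)
include hM f hz re s

local notation "Γ" j:max => R (fe (gv i0 j))

theorem inner_Γ {x : Ix M G → ℤ} (hx : ∀ χ ∉ S0 M G, x χ = 0) (j : JJ (S0 M G) E) :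
    9 * classInner (R (fe x)) (Γ j) = (3 * x j - ∑ y ∈ S0 M G, x y : ℤ) := by
  have := inner_R_fe hM f hz re hx (s.gv_zero i0 j)
  rw [s.form] at this
  push_cast at this ⊢
  linear_combination this / 3

theorem Γ_Γ (j k : JJ (S0 M G) E) : 3 * classInner (Γ j) (Γ k) = if j = k then 1 else 0 := by
  have := inner_R_fe hM f hz re (s.gv_zero i0 j) (s.gv_zero i0 k)
  simp only [s.gv_gv, s.gv_d, mul_ite, mul_zero, sum_ite_eq', mem_univ, if_true] at this
  split_ifs at this ⊢ <;> push_cast at this <;> linear_combination this / 9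

theorem R_fe {x : Ix M G → ℤ} (hx : ∀ χ ∉ S0 M G, x χ = 0) :
    R (fe x) = ∑ j : JJ (S0 M G) E, (((3 * x j - ∑ y ∈ S0 M G, x y : ℤ) : ℂ) / 3) • Γ j := by
  set c : JJ (S0 M G) E → ℤ := fun j => 3 * x j - ∑ y ∈ S0 M G, x y with hc
  have e1 := inner_R_fe hM f hz re hx hx
  rw [s.parseval hx] at e1
  have e2 : ∀ j, classInner (R (fe x)) (Γ j) = c j / 9 := fun j => by
    rw [hc, ← inner_Γ hM f hz re s i0 hx]; ring
  have e3 : ∀ j, classInner (Γ j) (R (fe x)) = c j / 9 := fun j => by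
    rw [← Char.inner_conj_symm, e2]; simp [map_ofNat]
  have e4 : ∀ j k : JJ (S0 M G) E, classInner (Γ j) (Γ k) = if j = k then 1 / 3 else 0 := fun j k => by
    have := Γ_Γ hM f hz re s i0 j k
    split_ifs at this ⊢ <;> linear_combination this / 3
  rw [← sub_eq_zero, ← Char.inner_self_eq_zero]
  simp only [Char.inner_sub_left, Char.inner_sub_right, inner_sum_left, inner_sum_right,
    Char.inner_smul_left, Char.inner_smul_right, e2, e3, e4, mul_ite, mul_zero, sum_ite_eq',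
    mem_univ, if_true, map_div₀, map_intCast, map_ofNat]
  change 27 * _ = ((∑ j, c j ^ 2 : ℤ) : ℂ) at e1
  change _ - ∑ j, (c j : ℂ) / 3 * (c j / 9) - ∑ j, (c j : ℂ) / 3 * (c j / 9 - c j / 3 * (1 / 3)) = 0
  rw [sum_eq_zero (f := fun j => (c j : ℂ) / 3 * (c j / 9 - c j / 3 * (1 / 3)))
    fun j _ => by ring, sum_congr rfl (g := fun j => (c j : ℂ) ^ 2 / 27) fun j _ => by ring, ← sum_div]
  push_cast at e1
  linear_combination e1 / 27

theorem R_irr (χ : Ix M G) : ∃ c : JJ (S0 M G) E → ℂ, R χ.1 = ∑ j, c j • Γ j := by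
  obtain ⟨x, hx, e⟩ := exists_lift hM f hz re χ
  exact ⟨_, e ▸ R_fe hM f hz re s i0 hx⟩

include i0 in
theorem rank_eq : blockRank 3 (PB M G) = Fintype.card (JJ (S0 M G) E) := by
  have li : LinearIndependent ℂ fun j : JJ (S0 M G) E => Γ j := by
    rw [Fintype.linearIndependent_iff]
    intro c hc k
    have := congrArg (fun θ => 3 * classInner θ (Γ k)) hc
    simpa only [inner_sum_left, Char.inner_smul_left, mul_sum, mul_left_comm (3 : ℂ),
      Γ_Γ hM f hz re s i0, mul_ite, mul_one, mul_zero, sum_ite_eq', mem_univ, if_true,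
      Char.inner_zero_left] using this
  rw [← finrank_span_eq_card li, blockRank_eq_finrank]
  refine congrArg (fun V : Submodule ℂ (G → ℂ) => Module.finrank ℂ V)
    (le_antisymm ?_ (Submodule.span_le.2 ?_))
  · rw [range_regProj, Submodule.span_le]
    rintro _ ⟨χ, hχ, rfl⟩
    obtain ⟨c, e⟩ := R_irr hM f hz re s i0 ⟨χ, mem_pb.2 hχ⟩
    exact (Submodule.mem_span_range_iff_exists_fun ℂ).2 ⟨c, e.symm⟩
  · rintro _ ⟨j, rfl⟩
    exact (mem_range_regProj_iff hM (nrm_eSet_pb hM)).2 ⟨(fe_span _).reg hM (nrm_eSet_pb hM), pv_reg _⟩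

theorem tw_gen (ha : a ^ 3 = 1) (a1 : a ≠ 1) (hl : Fintype.card κ % 3 ≠ 0) (j : JJ (S0 M G) E) :
    IsGeneralizedCharacter G (tw z a (Γ j)) := by
  obtain ⟨ψ, e, ne⟩ := exists_over hM f hz ha (fe_span (gv i0 j)) fun c => by
    have := Γ_Γ hM f hz re s i0 j j
    simp [c, Char.inner_zero_left] at this
  have n : ψ ∉ S0 M G := fun c => a1 (e ▸ (lam_iff hM f hz re ψ).2 c)
  obtain ⟨x, hx, e1⟩ := exists_lift hM f hz re ψ
  have e2 := inner_R_fe hM f hz re hx hx
  rw [e1, show (27 : ℂ) = 9 * 3 by norm_num, mul_assoc, inner_R_irr hM f hz re n, s.parseval hx] at e2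
  obtain ⟨k, δ, hδ, hk⟩ := unit_vec (by have := s.cardJ; omega) (fun j : JJ (S0 M G) E => x j) _
    (by exact_mod_cast e2.symm)
  have e3 : R ψ.1 = (δ : ℂ) • Γ k := by
    rw [← e1, R_fe hM f hz re s i0 hx, sum_eq_single k (fun j _ ne => by simp [hk, ne]) (by simp), hk]
    simp
  have kj : j = k := by
    by_contra c
    have := Γ_Γ hM f hz re s i0 j k
    rw [← inner_reg_reg, e3, Char.inner_smul_right] at ne
    rw [if_neg c] at this
    simp_all
  have := decomp hM f hz ha (inSpan_irr (mem_pb.1 ψ.2)) (e ▸ lam_ty hz ψ.1)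
  rw [sum_eq_zero fun i _ => by rw [(dv_spec hM f re i ψ).1, dv_zero hM f re i n]; simp, add_zero,
    e3, tw_smul] at this
  have g := gen_intCast_smul (gen_of_irr ψ.1.2) δ
  rwa [this, smul_smul, show (δ : ℂ) * δ = 1 by rcases hδ with e | e <;> simp [e], one_smul, ← kj] at g

/-- the generators of the lattice of generalized characters vanishing on regular elements -/
noncomputable def al (z : G) (a : ℂ) (x : Ix M G → ℤ) : G → ℂ := tw z a (R (fe x)) - fe x

theorem al_span (ha : a ^ 3 = 1) (x : Ix M G → ℤ) : InSpan (PB M G) (al z a x) :=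
  (tw_span hM f hz ha ((fe_span x).reg hM (nrm_eSet_pb hM))).sub (fe_span x)

theorem al_reg (x : Ix M G → ℤ) {g : G} (hg : ¬ 3 ∣ orderOf g) : al z a x g = 0 := by
  rw [al, Pi.sub_apply, tw_reg hM f hz (pPart_of_pRegular p3 hg), sub_self]

theorem al_U (j : JJ (S0 M G) E) (i : κ) : al z a (gv i0 j) (U i) = if i = i0 then -3 else 0 := by
  rw [al, Pi.sub_apply, tw_U hM f hz (i := i) (by rw [pPart_of_pElement p3 ⟨1, f.ou i⟩]),
    fe_U hM f re, s.gv_d]
  split_ifs <;> simp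

theorem al_al (ha : a ^ 3 = 1) (a1 : a ≠ 1) (hb : b ^ 3 = 1) (b1 : b ≠ 1) (j k : JJ (S0 M G) E) :
    classInner (al z a (gv i0 j)) (al z b (gv i0 k)) =
      if j = k then (if a = b then 3 else 2) else 1 := by
  have t := fun j : JJ (S0 M G) E => fe_ty hM f hz re (s.gv_zero i0 j)
  rw [al, al, Char.inner_sub_left, Char.inner_sub_right, Char.inner_sub_right,
    inner_tw ha hb (tw_ty f.oz hb _), inner_tw ha (one_pow 3) (t k), if_neg a1,
    (t j).inner_eq_zero (one_pow 3) hb (tw_ty f.oz hb _) b1.symm, inner_fe, s.gv_gv,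
    ← inner_reg_reg, R_tw hM f hz, Γ_Γ hM f hz re s i0]
  split_ifs <;> norm_num

theorem eq_zero_of_al {w : ℂ} (hw : IsPrimitiveRoot w 3) (h : InSpan (PB M G) θ) (h0 : R θ = 0)
    (hU : ∀ i, θ (U i) = 0) (h1 : ∀ j : JJ (S0 M G) E, classInner (al z w (gv i0 j)) θ = 0)
    (h2 : ∀ j : JJ (S0 M G) E, classInner (al z (w ^ 2) (gv i0 j)) θ = 0) : θ = 0 := by
  have w3 := hw.pow_eq_one
  have dec : ∀ {a φ}, a ^ 3 = 1 → InSpan (PB M G) φ → Ty z a φ →
      classInner φ θ = classInner (tw z a (R φ)) θ := fun ha hφ t => by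
    have := congrArg (classInner · θ) (decomp hM f hz ha hφ t)
    simpa only [Char.inner_add_left, inner_sum_left, Char.inner_smul_left,
      ← inner_conj_symm θ (Gam M _), inner_Gam h, hU, map_zero, mul_zero, sum_const_zero,
      add_zero] using this
  have key : ∀ j : JJ (S0 M G) E, ∀ a, a ^ 3 = 1 → classInner (tw z a (Γ j)) θ = 0 := by
    intro j a ha
    have e0 := dec (one_pow 3) (fe_span _) (fe_ty hM f hz re (s.gv_zero i0 j))
    have e1 := h1 j
    have e2 := h2 j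
    rw [al, Char.inner_sub_left, sub_eq_zero] at e1 e2
    have e3 : tw z 1 (Γ j) + tw z w (Γ j) + tw z (w ^ 2) (Γ j) = (3 : ℂ) • Γ j := by
      have := cube_sum w3 (hw.ne_one (by norm_num))
      ext g
      simp only [tw, Pi.add_apply, Pi.smul_apply, smul_eq_mul]
      linear_combination ((Γ j) (z⁻¹ * g) + (Γ j) (z * g)) * this + w * (Γ j) (z * g) * w3
    have e4 := congrArg (classInner · θ) e3
    simp only [Char.inner_add_left, Char.inner_smul_left, inner_reg_left, h0, Char.inner_zero_right,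
      e1, e2, ← e0] at e4
    have e5 : classInner (fe (gv i0 j)) θ = 0 := by linear_combination e4 / 3
    obtain ⟨k, hk, rfl⟩ := hw.eq_pow_of_pow_eq_one ha
    interval_cases k
    · rw [pow_zero, ← e0, e5]
    · rw [pow_one, e1, e5]
    · rw [e2, e5]
  refine eq_of_inner_pb h (inSpan_zero _) fun ψ hψ => ?_
  obtain ⟨c, e⟩ := R_irr hM f hz re s i0 ⟨ψ, hψ⟩
  rw [Char.inner_zero_left, inner_eq_zero_comm, dec (lam_cube hz f.oz ψ) (inSpan_irr (mem_pb.1 hψ))
    (lam_ty hz ψ), e, tw_sum, inner_sum_left]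
  exact sum_eq_zero fun j _ => by
    rw [tw_smul, Char.inner_smul_left, key j _ (lam_cube hz f.oz ψ), mul_zero]

end Cen
end CF.X3
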