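/-
Transfer from the centralizer to the whole group and the invariants of the principal block.
-/
import Cfsg.Agent.X3.Ch3
set_option autoImplicit false
set_option linter.unusedSectionVars false

namespace CF.X3
open Cfsg CF.Char CF.BlockB CF.ABGc Finset Subgroup
open scoped ComplexConjugate Classical

variable {M : Ideal AlgInt} {G : Type*} [Group G] [Fintype G] {κ : Type*} [Fintype κ]
  {z : G} {U : κ → Cen z}

local notation "R" => pRegularPart 3
local notation "H" => Cen z
abbrev zz (z : G) : Cen z := ⟨z, self_mem_Cen z⟩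
local notation "z'" => zz z

theorem Gam_conj (g h : G) : Gam M h g = conj (Gam M g h) := by
  simp [Gam_apply, mul_comm]

theorem zc : z' ∈ center H := self_mem_center_centralizer z

theorem rep3 (f' : Fu z' U) {h : H} (hh : 3 ∣ orderOf h) :
    pPart 3 (h : G) = z ∨ pPart 3 (h : G) = z⁻¹ ∨ ∃ i, IsConj (U i) (pPart 3 h) := by
  have cz : ∀ x ∈ center H, ∀ y, IsConj x y → y = x := fun x hx y c => by
    obtain ⟨w, rfl⟩ := isConj_iff.1 c
    rw [mem_center_iff.1 hx w]; group
  rw [← coe_pPart]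
  rcases f'.rep _ (pPart_pElement p3 h) with e | e | e | e
  · exact absurd hh ((pPart_eq_one_iff p3).1 e)
  · exact .inl (congrArg Subtype.val (cz _ zc _ e))
  · exact .inr (.inl (congrArg Subtype.val (cz _ (inv_mem zc) _ e)))
  · exact .inr (.inr e)

theorem conj_coe {x h : H} (c : IsConj x (pPart 3 h)) : IsConj (x : G) (pPart 3 h) := by
  rw [← coe_pPart]; exact (Cen z).subtype.map_isConj c

variable (hM : IsPModular 3 M) (f : Fu z fun i => (U i : G)) (f' : Fu (zz z) U)
include hM f f'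

theorem conj_U_iff {h : H} (hh : 3 ∣ orderOf h) (i : κ) :
    IsConj (U i : G) (pPart 3 h) ↔ IsConj (U i) (pPart 3 h) := by
  refine ⟨fun c => ?_, conj_coe⟩
  rcases rep3 f' hh with e | e | ⟨j, e⟩
  · exact absurd (e ▸ c).symm (f.zu i)
  · exact absurd (e ▸ c).symm (f.zu' i)
  · rw [f.uu i j (c.trans (conj_coe e).symm)]
    exact e

theorem ker {h h' : H} (hh : 3 ∣ orderOf h) (hh' : 3 ∣ orderOf h') : Gam M (h' : G) h = Gam M h' h := by
  have key : (pPart 3 (h : G) = z ∨ pPart 3 (h : G) = z⁻¹) → Gam M (h' : G) h = Gam M h' h := by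
    intro e
    rw [Gam_apply, Gam_apply]
    refine sum_pb_mul_conj_eq hM (isPGroup_zpowers_of_orderOf ⟨1, f.oz⟩) (CF.BG.cent_zpowers z).symm h h'
      (by rcases e with e | e <;> rw [e]; rw [centralizer_inv]) fun g hg => ?_
    have c := isConj_iff.2 ⟨g, hg⟩
    rcases rep3 f' hh' with e' | e' | ⟨j, e'⟩
    · rw [e'] at hg c
      rcases e with e | e <;> rw [e] at hg c
      · exact mem_Cen.2 (mul_inv_eq_iff_eq_mul.1 hg)
      · exact absurd c f.zz
    · rw [e'] at hg c
      rcases e with e | e <;> rw [e] at hg c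
      · exact absurd c.symm f.zz
      · rw [← centralizer_inv]; exact mem_Cen.2 (mul_inv_eq_iff_eq_mul.1 hg)
    · have := ((conj_U_iff hM f f' hh' j).2 e').trans c
      rcases e with e | e <;> rw [e] at this
      · exact absurd this.symm (f.zu j)
      · exact absurd this.symm (f.zu' j)
  rcases rep3 f' hh with e | e | ⟨i, e⟩
  · exact key (.inl e)
  · exact key (.inr e)
  · rw [span_apply_U hM f (inSpan_Gam _) ((conj_U_iff hM f f' hh i).2 e),
      span_apply_U hM f' (inSpan_Gam _) e, Gam_conj, Gam_conj (U i), gam_U hM f, gam_U hM f']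
    simp only [conj_U_iff hM f f' hh']
    congr

omit hM f f' in
theorem inner_congr_sing {α φ ψ : H → ℂ} (h0 : ∀ g, ¬ 3 ∣ orderOf g → α g = 0)
    (h : ∀ g, 3 ∣ orderOf g → φ g = ψ g) : classInner α φ = classInner α ψ := by
  rw [inner_def, inner_def]
  congr 1
  refine sum_congr rfl fun g _ => ?_
  by_cases c : 3 ∣ orderOf g
  · rw [h g c]
  · simp [h0 g c]

noncomputable def tr (M : Ideal AlgInt) (α : H → ℂ) : G → ℂ := blockPart (PB M G) (indFun H α)

omit hM f f' in
theorem inner_tr (α : H → ℂ) {θ : G → ℂ} (h : InSpan (PB M G) θ) :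
    classInner (tr M α) θ = classInner α fun g : H => θ g := by
  rw [tr, inner_blockPart_left, show blockPart (PB M G) θ = θ from h, inner_indFun_left _ _ h.classFun]

theorem tr_apply {α : H → ℂ} (h : InSpan (PB M H) α) (h0 : ∀ g, ¬ 3 ∣ orderOf g → α g = 0) {g : H}
    (hg : 3 ∣ orderOf g) : tr M α g = α g := by
  rw [← inner_Gam (M := M) (θ := tr M α) (inSpan_blockPart _ _), inner_tr _ (inSpan_Gam _),
    ← inner_Gam h]
  exact inner_congr_sing h0 fun k hk => ker hM f f' hk hg

theorem tr_tr {α β : H → ℂ} (h0 : ∀ g, ¬ 3 ∣ orderOf g → α g = 0) (h : InSpan (PB M H) β)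
    (h0' : ∀ g, ¬ 3 ∣ orderOf g → β g = 0) : classInner (tr M α) (tr M β) = classInner α β := by
  rw [inner_tr _ (θ := tr M β) (inSpan_blockPart _ _)]
  exact inner_congr_sing h0 fun k hk => tr_apply hM f f' h h0' hk

theorem card_pb : Nat.card (PB M G) =
    blockRank 3 (PB M G) + (2 * blockRank 3 (PB M H) + Fintype.card κ) := by
  have n1 : ∀ {x : G}, orderOf x = 3 → x ≠ 1 := fun o e => by rw [e, orderOf_one] at o; omega
  have inj : Function.Injective fun i => (U i : G) := fun i j e => f.uu i j (by rw [show (U i : G) = U j from e])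
  have m1 : z ∉ insert z⁻¹ (univ.image fun i => (U i : G)) := by
    simp only [mem_insert, mem_image, mem_univ, true_and, not_or, not_exists]
    exact ⟨fun e => f.zz (by rw [← e]), fun i e => f.zu i (by rw [e])⟩
  have m2 : z⁻¹ ∉ univ.image fun i => (U i : G) := by
    simp only [mem_image, mem_univ, true_and, not_exists]
    exact fun i e => f.zu' i (by rw [e])
  rw [card_pb_eq_blockRank_add hM (insert z (insert z⁻¹ (univ.image fun i => (U i : G)))),
    sum_insert m1, sum_insert m2, sum_image fun i _ j _ e => inj e, show Cen z⁻¹ = H from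
      centralizer_inv z, sum_congr rfl (g := fun _ => 1) fun i _ => by
        obtain ⟨N, _, a, b⟩ := f.npc i
        exact blockRank_pb_of_npc hM N a b]
  · simp; ring
  · simp only [mem_insert, mem_image, mem_univ, true_and]
    rintro _ (rfl | rfl | ⟨i, rfl⟩)
    · exact ⟨n1 f.oz, 1, f.oz⟩
    · exact ⟨inv_ne_one.2 (n1 f.oz), 1, by simp [f.oz]⟩
    · exact ⟨n1 (f.ou i), 1, f.ou i⟩
  · intro g g1 hg
    have un : ∀ x ∈ insert z (insert z⁻¹ (univ.image fun i => (U i : G))),
        ∀ y ∈ insert z (insert z⁻¹ (univ.image fun i => (U i : G))), IsConj x y → x = y := by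
      simp only [mem_insert, mem_image, mem_univ, true_and]
      rintro _ (rfl | rfl | ⟨i, rfl⟩) _ (rfl | rfl | ⟨j, rfl⟩) c
      exacts [rfl, absurd c f.zz, absurd c (f.zu j), absurd c.symm f.zz, rfl, absurd c (f.zu' j),
        absurd c.symm (f.zu i), absurd c.symm (f.zu' i), by rw [f.uu i j c]]
    refine existsUnique_of_exists_of_unique ?_ fun x y hx hy => un x hx.1 y hy.1 (hx.2.symm.trans hy.2)
    rcases f.rep g hg with e | e | e | ⟨i, e⟩
    · exact absurd e g1
    · exact ⟨z, by simp, e.symm⟩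
    · exact ⟨z⁻¹, by simp, e.symm⟩
    · exact ⟨U i, by simp, e.symm⟩

theorem cover (re' : ∀ i, IsConj (U i) (U i)⁻¹) [Nonempty κ] {E : κ → Ix M H}
    (s : Six (dv U) (S0 M H) E) (i0 : κ) {w : ℂ} (hw : IsPrimitiveRoot w 3) {χ : Ix M G}
    (hχ : χ ∉ S0 M G) (c1 : ∀ j : JJ (S0 M H) E, classInner (tr M (al z' w (gv i0 j))) χ.1 = 0)
    (c2 : ∀ j : JJ (S0 M H) E, classInner (tr M (al z' (w ^ 2) (gv i0 j))) χ.1 = 0) : False := by
  have re : ∀ i, IsConj (U i : G) (U i : G)⁻¹ := fun i => (Cen z).subtype.map_isConj (re' i)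
  have w3 := hw.pow_eq_one
  obtain ⟨g, hg, ne⟩ := exists_singular_ne_zero_of_mem_pb hM (mem_pb.1 χ.2) fun e =>
    hχ (by simp [S0, e, charDegree_oneIrr])
  have sχ := inSpan_irr (mem_pb.1 χ.2)
  have U0 : ∀ i, (χ.1 : G → ℂ) (U i) = 0 := fun i => by
    rw [(dv_spec hM f re i χ).1, dv_zero hM f re i hχ]; simp
  set η := blockPart (PB M H) fun h : H => (χ.1 : G → ℂ) h with hη
  have sη : InSpan (PB M H) η := inSpan_blockPart _ _
  have o : ∀ a, a ^ 3 = 1 → ∀ j : JJ (S0 M H) E, classInner (tr M (al z' a (gv i0 j))) χ.1 = 0 →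
      classInner (al z' a (gv i0 j)) (η - R η) = 0 := by
    intro a ha j this
    rw [inner_tr _ sχ,
      ← show blockPart (PB M H) _ = _ from al_span hM f' zc re' s ha (gv i0 j),
      inner_blockPart_left] at this
    rw [← this]
    exact inner_congr_sing (fun _ => al_reg hM f' zc re' s _) fun k hk => by simp [reg_of_dvd _ hk, hη]
  have z0 := eq_zero_of_al hM f' zc re' s i0 hw (sη.sub (sη.reg hM (nrm_eSet_pb hM)))
    (by ext k; by_cases c : 3 ∣ orderOf k <;> simp [reg_apply, c]) (fun i => by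
      rw [Pi.sub_apply, reg_of_dvd _ (by rw [f'.ou]), sub_zero, ← inner_Gam sη, hη,
        inner_blockPart_left, show blockPart (PB M H) _ = _ from inSpan_Gam (U i), inner_def,
        sum_eq_zero fun k _ => ?_, mul_zero]
      rw [gam_U hM f']
      split_ifs with c
      · rw [span_apply_U hM f sχ (conj_coe c), U0, zero_mul]
      · simp) (fun j => o _ w3 j (c1 j)) fun j => o _ (by rw [← pow_mul, mul_comm, pow_mul, w3, one_pow]) j (c2 j)
  have zs : ∀ g : G, pPart 3 g = z ∨ pPart 3 g = z⁻¹ → (χ.1 : G → ℂ) g = 0 := fun g e => by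
    have l : centralizer {pPart 3 g} ≤ H := by rcases e with e | e <;> rw [e]; rw [centralizer_inv]
    have m : g ∈ H := l (mem_Cen.2 (commute_pPart_self g))
    have d : 3 ∣ orderOf (⟨g, m⟩ : H) := by
      by_contra c
      have c' : pPart 3 g = 1 := (pPart_eq_one_iff p3).2 (by rwa [← orderOf_coe] at c)
      have o := f.oz
      rcases e with e | e <;> rw [c'] at e
      · rw [← e, orderOf_one] at o; omega
      · rw [inv_eq_one.1 e.symm, orderOf_one] at o; omega
    have := congrFun z0 ⟨g, m⟩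
    rw [Pi.sub_apply, reg_of_dvd _ d, sub_zero] at this
    exact (blockPart_pb_res_of_mem hM (isPGroup_zpowers_of_orderOf ⟨1, f.oz⟩)
      (CF.BG.cent_zpowers z).symm ⟨g, m⟩ l (mem_pb.1 χ.2)).symm.trans this
  refine ne ?_
  rcases f.rep _ (pPart_pElement p3 g) with e | e | e | ⟨i, e⟩
  · exact absurd hg ((pPart_eq_one_iff p3).1 e)
  · obtain ⟨y, e⟩ := isConj_iff.1 e.symm
    rw [← classFun_conj sχ.classFun g y, zs _ (.inl (by rw [pPart_conj, e]))]
  · obtain ⟨y, e⟩ := isConj_iff.1 e.symm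
    rw [← classFun_conj sχ.classFun g y, zs _ (.inr (by rw [pPart_conj, e]))]
  · rw [span_apply_U hM f sχ e, U0]

theorem main (re' : ∀ i, IsConj (U i) (U i)⁻¹) [Nonempty κ] (hl : Fintype.card κ % 3 ≠ 0) :
    Nat.card (PB M G) + 2 * Fintype.card κ = 18 ∧ (S0 M G).card = 6 ∧
      blockRank 3 (PB M G) + Fintype.card κ = 6 := by
  have re : ∀ i, IsConj (U i : G) (U i : G)⁻¹ := fun i => (Cen z).subtype.map_isConj (re' i)
  obtain ⟨E, s⟩ := exists_six hM f' zc re'
  obtain ⟨i0⟩ := ‹Nonempty κ›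
  haveI : Nonempty κ := ⟨i0⟩
  obtain ⟨w, hw⟩ : ∃ w : ℂ, IsPrimitiveRoot w 3 := ⟨_, Complex.isPrimitiveRoot_exp 3 (by norm_num)⟩
  have w3 := hw.pow_eq_one
  have w1 := hw.ne_one (by norm_num)
  have w3' : (w ^ 2) ^ 3 = 1 := by rw [← pow_mul, mul_comm, pow_mul, w3, one_pow]
  have w1' : w ^ 2 ≠ 1 := hw.pow_ne_one_of_pos_of_lt (by norm_num) (by norm_num)
  have ww : w ≠ w ^ 2 := fun e => w1 (mul_left_cancel₀ (hw.ne_zero (by norm_num)) (by rw [← sq, ← e, mul_one]))
  have ex : ∀ a, a ^ 3 = 1 → a ≠ 1 → ∀ j : JJ (S0 M H) E, ∃ v : Ix M G → ℤ,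
      fe v = tr M (al z' a (gv i0 j)) := fun a ha a1 j =>
    exists_fe (inSpan_blockPart _ _) (blockPart_isGen _ (gen_indFun _
      (gen_sub (tw_gen hM f' zc re' s i0 ha a1 hl j) (fe_gen _))))
  choose X hX using ex
  have xx : ∀ a ha a1 b hb b1 j k, X a ha a1 j ⬝ᵥ X b hb b1 k =
      if j = k then (if a = b then 3 else 2) else 1 := by
    intro a ha a1 b hb b1 j k
    have := inner_fe (X a ha a1 j) (X b hb b1 k)
    rw [hX, hX, tr_tr hM f f' (fun _ => al_reg hM f' zc re' s _) (al_span hM f' zc re' s hb _)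
      (fun _ => al_reg hM f' zc re' s _), al_al hM f' zc re' s i0 ha a1 hb b1] at this
    split_ifs at this ⊢ <;> exact_mod_cast this.symm
  have xd : ∀ a ha a1 j i, X a ha a1 j ⬝ᵥ dv (fun i => (U i : G)) i = if i = i0 then -3 else 0 := by
    intro a ha a1 j i
    have := fe_U hM f re (X a ha a1 j) i
    rw [hX, tr_apply hM f f' (al_span hM f' zc re' s ha _) (fun _ => al_reg hM f' zc re' s _)
      (by rw [f'.ou]), al_U hM f' zc re' s] at this
    split_ifs at this ⊢ <;> exact_mod_cast this.symm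
  have pr : Pr (dv fun i => (U i : G)) i0 (X w w3 w1) (X _ w3' w1') :=
    ⟨dv_dv hM f re, fun j k => by simp [xx], fun j k => by simp [xx], fun j k => by simp [xx, ww],
      xd _ _ _, xd _ _ _⟩
  have cJ := s.cardJ
  obtain ⟨E', s'⟩ := (dv_cases hM f re).resolve_right fun ⟨a, b, c⟩ => pr.nine b c (by omega)
  have cnt := pr.count s' cJ fun χ hχ => by
    by_contra c
    push Not at c
    exact cover hM f f' re' s i0 hw hχ (fun j => by rw [← hX _ w3 w1, inner_fe_irr, (c j).1]; simp)
      fun j => by rw [← hX _ w3' w1', inner_fe_irr, (c j).2]; simp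
  have k : Nat.card (PB M G) = (S0 M G).card + (S0 M G)ᶜ.card := by
    rw [card_add_card_compl, ← Nat.card_eq_fintype_card]
    exact Nat.card_congr (Equiv.subtypeEquivRight fun _ => mem_pb.symm)
  have := card_pb hM f f'
  rw [rank_eq hM f' zc re' s i0] at this
  have := s'.card
  omega

end CF.X3
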